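import Cfsg.Agent.Chev.SpSlim.Extend

/-!
# The subgroups of the slim amalgam
-/

set_option autoImplicit false

namespace CfsgLib.Chev.SpSlim

open Matrix CfsgLib.SpGeom

universe u v

variable {F : Type u} [Field F] {n : ℕ}

local notation "V" => (Fin n ⊕ Fin n → F)
local notation "Sp" => Matrix.symplecticGroup (Fin n) F

/-- The elements fixing the pairs outside a set of indices. -/
def supp (n : ℕ) (F : Type u) [Field F] (I : Fin n → Prop) :
    Subgroup (Matrix.symplecticGroup (Fin n) F) where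
  carrier := {g | ∀ l, ¬ I l → ap g (eV l) = eV l ∧ ap g (fV l) = fV l}
  one_mem' l _ := ⟨ap_one _, ap_one _⟩
  mul_mem' {a b} ha hb l hl := by
    rw [ap_mul, ap_mul, (hb l hl).1, (hb l hl).2]; exact ha l hl
  inv_mem' {a} ha l hl := ⟨ap_inv_of a (ha l hl).1, ap_inv_of a (ha l hl).2⟩

theorem single_eq_smul (j : Fin n ⊕ Fin n) (c : F) :
    (Pi.single j c : V) = c • (Pi.single j 1 : V) := by
  ext i; simp [Pi.single_apply]

theorem ap_of_basis {B : Sp} {x : V}
    (h1 : ∀ l, x (.inl l) ≠ 0 → ap B (eV l) = eV l) (h2 : ∀ l, x (.inr l) ≠ 0 → ap B (fV l) = fV l) :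
    ap B x = x := by
  have hx : x = ∑ i, Pi.single i (x i) := (Finset.univ_sum_single x).symm
  conv_lhs => rw [hx]
  rw [ap, Matrix.mulVec_sum]
  conv_rhs => rw [hx]
  refine Finset.sum_congr rfl fun i _ => ?_
  show ap B _ = _
  by_cases h0 : x i = 0
  · rw [h0, Pi.single_zero, ap_zero]
  rw [single_eq_smul, ap_smul]
  rcases i with l | l
  · exact congrArg _ (h1 l h0)
  · exact congrArg _ (h2 l h0)

theorem ext_basis {A B : Sp} (h : ∀ l, ap A (eV l) = ap B (eV l) ∧ ap A (fV l) = ap B (fV l)) : A = B :=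
  Subtype.ext (Matrix.ext_of_mulVec_single fun j => by
    rcases j with j | j
    exacts [(h j).1, (h j).2])

theorem supp_maps {I : Fin n → Prop} {g : Sp} (hg : g ∈ supp n F I) {x : V} {l : Fin n} (hl : ¬ I l) :
    ap g x (.inl l) = x (.inl l) ∧ ap g x (.inr l) = x (.inr l) := by
  obtain ⟨h1, h2⟩ := hg l hl
  constructor
  · rw [← bo_fV_right (ap g x), ← h2, bo_ap, bo_fV_right]
  · have e : bo (ap g x) (eV l) = bo x (eV l) := by rw [← h1, bo_ap, h1]
    rw [bo_eV_right, bo_eV_right, neg_inj] at e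
    exact e

theorem supp_commute {I J : Fin n → Prop} {A B : Sp} (hA : A ∈ supp n F I) (hB : B ∈ supp n F J)
    (h : ∀ l, I l → ¬ J l) : A * B = B * A := by
  have key : ∀ {I J : Fin n → Prop} {A B : Sp}, A ∈ supp n F I → B ∈ supp n F J →
      (∀ l, I l → ¬ J l) → ∀ v : V, (∀ l, ¬ I l → v (.inl l) = 0 ∧ v (.inr l) = 0) →
      ap B (ap A v) = ap A v := by
    intro I J A B hA hB h v hv
    refine ap_of_basis (fun l hl => (hB l (h l ?_)).1) (fun l hl => (hB l (h l ?_)).2)
    · by_contra hI; exact hl (by rw [(supp_maps hA hI).1, (hv l hI).1])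
    · by_contra hI; exact hl (by rw [(supp_maps hA hI).2, (hv l hI).2])
  refine ext_basis fun k => ?_
  simp only [ap_mul]
  by_cases hI : I k
  · have hJ := hB k (h k hI)
    have hs : ∀ l, ¬ I l → l ≠ k := fun l hl e => hl (e ▸ hI)
    rw [hJ.1, hJ.2, key hA hB h _ (fun l hl => by simp [eV, hs l hl]),
      key hA hB h _ (fun l hl => by simp [fV, hs l hl])]
    exact ⟨rfl, rfl⟩
  · have hA' := hA k hI
    rw [hA'.1, hA'.2]
    by_cases hJ : J k
    · have hs : ∀ l, ¬ J l → l ≠ k := fun l hl e => hl (e ▸ hJ)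
      rw [key hB hA (fun l hl hl' => h l hl' hl) _ (fun l hl => by simp [eV, hs l hl]),
        key hB hA (fun l hl hl' => h l hl' hl) _ (fun l hl => by simp [fV, hs l hl])]
      exact ⟨rfl, rfl⟩
    · rw [(hB k hJ).1, (hB k hJ).2, hA'.1, hA'.2]
      exact ⟨rfl, rfl⟩

theorem tv_mem_supp {I : Fin n → Prop} {v : V} (hv : ∀ l, ¬ I l → v (.inl l) = 0 ∧ v (.inr l) = 0) (c : F) :
    tv v c ∈ supp n F I := fun l hl => by
  refine ⟨ap_tv_fix _ _ ?_, ap_tv_fix _ _ ?_⟩
  · rw [bo_eV_right, (hv l hl).2, neg_zero]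
  · rw [bo_fV_right, (hv l hl).1]

/-- The upper unipotent elements on two neighbouring pairs. -/
def upSub (n : ℕ) (F : Type u) [Field F] (i : Fin n) : Subgroup (Matrix.symplecticGroup (Fin n) F) where
  carrier := {g | (∀ l, ap g (eV l) = eV l) ∧
    ∀ l : Fin n, (l : ℕ) ≠ i → (l : ℕ) ≠ (i : ℕ) + 1 → ap g (fV l) = fV l}
  one_mem' := ⟨fun l => ap_one _, fun l _ _ => ap_one _⟩
  mul_mem' {a b} ha hb := ⟨fun l => by rw [ap_mul, hb.1, ha.1],
    fun l h h' => by rw [ap_mul, hb.2 l h h', ha.2 l h h']⟩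
  inv_mem' {a} ha := ⟨fun l => ap_inv_of a (ha.1 l), fun l h h' => ap_inv_of a (ha.2 l h h')⟩

theorem upSub_le_supp (i : Fin n) :
    upSub n F i ≤ supp n F (fun l => (l : ℕ) = i ∨ (l : ℕ) = (i : ℕ) + 1) := fun g hg l hl => by
  push Not at hl
  exact ⟨hg.1 l, hg.2 l hl.1 hl.2⟩

theorem upSub_commute {i i' : Fin n} {A B : Sp} (hA : A ∈ upSub n F i) (hB : B ∈ upSub n F i') :
    A * B = B * A := by
  have inr : ∀ (A : Sp), (∀ l, ap A (eV l) = eV l) → ∀ k l, ap A (fV k : V) (.inr l) = (fV k : V) (.inr l) := by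
    intro A hA k l
    have e : bo (ap A (fV k)) (eV l) = bo (fV k) (eV l) := by rw [← hA l, bo_ap, hA l]
    rw [bo_eV_right, bo_eV_right, neg_inj] at e
    exact e
  refine ext_basis fun k => ⟨by simp only [ap_mul, hA.1, hB.1], ?_⟩
  simp only [ap_mul]
  have fix : ∀ (A B : Sp), (∀ l, ap A (eV l) = eV l) → (∀ l, ap B (eV l) = eV l) →
      ap A (ap B (fV k) - fV k : V) = ap B (fV k) - fV k := by
    intro A B hA hB
    refine ap_of_basis (fun l _ => hA l) fun l hl => absurd ?_ hl
    rw [Pi.sub_apply, inr B hB, sub_self]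
  have e1 := fix A B hA.1 hB.1
  have e2 := fix B A hB.1 hA.1
  rw [sub_eq_add_neg, ap_add, ap_neg] at e1 e2
  have e1' : ap A (ap B (fV k : V)) = ap B (fV k) - fV k + ap A (fV k) := by
    rw [sub_eq_add_neg, ← e1]; abel
  have e2' : ap B (ap A (fV k : V)) = ap A (fV k) - fV k + ap B (fV k) := by
    rw [sub_eq_add_neg, ← e2]; abel
  rw [e1', e2']
  abel

theorem tv_mem_upSub {i l : Fin n} (h : (l : ℕ) = i ∨ (l : ℕ) = (i : ℕ) + 1) (c : F) :
    tv (eV l : V) c ∈ upSub n F i := by
  refine ⟨fun k => ap_tv_fix _ _ ?_, fun k h1 h2 => ap_tv_fix _ _ ?_⟩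
  · rw [bo_eV_right]; simp [eV]
  · rw [bo_fV_right]
    have : k ≠ l := fun e => by subst e; omega
    simp [eV, this]

theorem Eich_mem_upSub {i k : Fin n} (h : (k : ℕ) = (i : ℕ) + 1) (t : F) :
    Eich (eV k : V) (t • eV i) ∈ upSub n F i := by
  have h0 : bo (eV k : V) (t • eV i) = 0 := by rw [bo_smul_right, bo_eV_right]; simp [eV]
  refine ⟨fun l => ap_Eich_fix h0 ?_ ?_, fun l h1 h2 => ap_Eich_fix h0 ?_ ?_⟩
  · rw [bo_eV_right]; simp [eV]
  · rw [bo_smul_left, bo_eV_right]; simp [eV]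
  · rw [bo_fV_right]
    have : l ≠ k := fun e => by subst e; omega
    simp [eV, this]
  · rw [bo_smul_left, bo_fV_right]
    have : l ≠ i := fun e => by subst e; omega
    simp [eV, this]

theorem upSub_decomp {i k : Fin n} (h : (k : ℕ) = (i : ℕ) + 1) {g : Sp} (hg : g ∈ upSub n F i) :
    ∃ a c t : F, g = tv (eV i) a * tv (eV k) c * Eich (eV k) (t • eV i) := by
  have hik : i ≠ k := fun e => by subst e; omega
  have h0 : ∀ t : F, bo (eV k : V) (t • eV i) = 0 := fun t => by rw [bo_smul_right, bo_eV_right]; simp [eV]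
  refine ⟨ap g (fV i) (.inl i), ap g (fV k) (.inl k), ap g (fV i) (.inl k), ext_basis fun l => ⟨?_, ?_⟩⟩
  · rw [hg.1 l, ((mul_mem (mul_mem (tv_mem_upSub (Or.inl rfl) _) (tv_mem_upSub (Or.inr h) _))
      (Eich_mem_upSub h _) : _ ∈ upSub n F i)).1 l]
  have expand : ∀ l : Fin n, ap g (fV l : V) = fV l + ap g (fV l) (.inl i) • eV i + ap g (fV l) (.inl k) • eV k := by
    intro l
    funext j
    rcases j with j | j
    · by_cases hj : j = i
      · subst hj; simp [fV, eV, hik]
      by_cases hj' : j = k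
      · subst hj'; simp [fV, eV, hj]
      have e : bo (ap g (fV l)) (fV j) = bo (fV l) (fV j) := by
        have hfix := hg.2 j (fun e => hj (Fin.ext e)) (fun e => hj' (Fin.ext (e.trans h.symm)))
        conv_lhs => rw [← hfix, bo_ap]
      rw [bo_fV_right, bo_fV_right] at e
      rw [e]; simp [fV, eV, hj, hj']
    · have e : bo (ap g (fV l)) (eV j) = bo (fV l) (eV j) := by rw [← hg.1 j, bo_ap, hg.1 j]
      rw [bo_eV_right, bo_eV_right, neg_inj] at e
      rw [e]; simp [fV, eV]
  have hEE : ∀ a b : Fin n, bo (eV a : V) (eV b) = 0 := fun a b => by rw [bo_eV_right]; simp [eV]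
  have hEF : ∀ a b : Fin n, bo (eV a : V) (fV b) = if b = a then 1 else 0 := fun a b => by
    rw [bo_fV_right]; simp [eV, Pi.single_apply]
  have hFE : ∀ a b : Fin n, bo (fV a : V) (eV b) = if b = a then -1 else 0 := fun a b => by
    rw [bo_eV_right]; simp [fV, Pi.single_apply]; split_ifs <;> simp
  have hFF : ∀ a b : Fin n, bo (fV a : V) (fV b) = 0 := fun a b => by rw [bo_fV_right]; simp [fV]
  have hsym : ap g (fV k : V) (.inl i) = ap g (fV i : V) (.inl k) := by
    -- the form is preserved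
    have e := bo_ap g (fV i : V) (fV k)
    rw [expand i, expand k] at e
    simp only [bo_add_left, bo_add_right, bo_smul_left, bo_smul_right, hEE, hEF, hFE, hFF, hik, hik.symm,
      if_true, if_false, mul_zero, zero_mul, add_zero, zero_add, mul_neg, mul_one, neg_zero] at e
    linear_combination -e
  simp only [ap_mul, ap_Eich (h0 _), bo_smul_left, ap_add, ap_smul, ap_tv, bo_add_right, bo_smul_right,
    hEE, hEF]
  rw [expand l]
  by_cases hl : l = i
  · subst hl
    simp only [hik, hik.symm, if_true, if_false]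
    module
  by_cases hl' : l = k
  · subst hl'
    simp only [hl, hik, hik.symm, if_true, if_false, hsym]
    module
  · have hfix := hg.2 l (fun e => hl (Fin.ext e)) (fun e => hl' (Fin.ext (e.trans h.symm)))
    rw [← expand l, hfix]
    simp only [hl, hl', if_false]
    module

/-- The product decomposition of an element supported on one pair. -/
theorem supp_one_le {k : Fin n} (H : Subgroup Sp) (he : ∀ c, tv (eV k : V) c ∈ H)
    (hf : ∀ c, tv (fV k : V) c ∈ H) : supp n F (fun l => l = k) ≤ H := by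
  intro g hg
  have h12 : bo (eV k : V) (fV k) = 1 := bo_eV_fV _
  have h21 : bo (fV k : V) (eV k) = -1 := by rw [bo_skew, h12]
  have hcomb : ∀ v : V, (∀ l, l ≠ k → v (.inl l) = 0 ∧ v (.inr l) = 0) →
      v = v (.inl k) • eV k + v (.inr k) • fV k := fun v hv => by
    funext j
    rcases j with j | j <;> by_cases hj : j = k
    · subst hj; simp [eV, fV]
    · simp [eV, fV, hj, (hv j hj).1]
    · subst hj; simp [eV, fV]
    · simp [eV, fV, hj, (hv j hj).2]
  have himg : ∀ (g : Sp) (x : V), g ∈ supp n F (fun l => l = k) → (∀ l, l ≠ k → x (.inl l) = 0 ∧ x (.inr l) = 0) →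
      ∀ l, l ≠ k → ap g x (.inl l) = 0 ∧ ap g x (.inr l) = 0 := fun g x hg hx l hl => by
    rw [(supp_maps hg hl).1, (supp_maps hg hl).2]; exact hx l hl
  have hsk : ∀ w : V, (∀ l, l ≠ k → w (.inl l) = 0 ∧ w (.inr l) = 0) → ∀ c, tv w c ∈ supp n F (fun l => l = k) :=
    fun w hw c => tv_mem_supp hw c
  have se : ∀ l, l ≠ k → (eV k : V) (.inl l) = 0 ∧ (eV k : V) (.inr l) = 0 := fun l hl => by simp [eV, hl]
  have sf : ∀ l, l ≠ k → (fV k : V) (.inl l) = 0 ∧ (fV k : V) (.inr l) = 0 := fun l hl => by simp [fV, hl]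
  -- fix the first vector
  have step2 : ∀ g : Sp, g ∈ supp n F (fun l => l = k) → ap g (eV k) = eV k → g ∈ H := by
    intro g hg he'
    have hv := hcomb _ (himg g (fV k) hg sf)
    have hb : ap g (fV k : V) (.inr k) = 1 := by
      have e := bo_ap g (fV k : V) (eV k)
      rw [he', bo_eV_right, h21, neg_inj] at e
      exact e
    rw [hb, one_smul] at hv
    have e : g = tv (eV k) (ap g (fV k : V) (.inl k)) := ext_basis fun l => by
      by_cases hl : l = k
      · subst hl
        rw [he', ap_tv_fix _ _ (bo_self _), ap_tv, h12, mul_one]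
        exact ⟨rfl, hv.trans (add_comm _ _)⟩
      · rw [(hg l hl).1, (hg l hl).2, (hsk _ se _ l hl).1, (hsk _ se _ l hl).2]
        exact ⟨rfl, rfl⟩
    rw [e]; exact he _
  -- when the second coefficient is non-zero
  have step1 : ∀ g : Sp, g ∈ supp n F (fun l => l = k) → ap g (eV k : V) (.inr k) ≠ 0 → g ∈ H := by
    intro g hg hb
    have hv := hcomb _ (himg g (eV k) hg se)
    set a := ap g (eV k : V) (.inl k)
    set b := ap g (eV k : V) (.inr k)
    have hmem : tv (eV k : V) ((a - 1) / b) * tv (fV k : V) (-b) ∈ supp n F (fun l => l = k) :=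
      mul_mem (hsk _ se _) (hsk _ sf _)
    have hH : tv (eV k : V) ((a - 1) / b) * tv (fV k : V) (-b) ∈ H := mul_mem (he _) (hf _)
    have hz : ap (tv (eV k : V) ((a - 1) / b) * tv (fV k : V) (-b)) (eV k) = ap g (eV k) := by
      rw [hv, ap_mul, ap_tv, ap_tv]
      simp only [bo_add_right, bo_smul_right, bo_self, h12, h21, mul_neg, neg_neg, mul_one, zero_add,
        div_mul_cancel₀ _ hb, sub_smul, one_smul]
      abel
    have := step2 ((tv (eV k : V) ((a - 1) / b) * tv (fV k : V) (-b))⁻¹ * g) (mul_mem (inv_mem hmem) hg)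
      (by rw [ap_mul, ← hz, ap_inv_left])
    simpa [← mul_assoc] using mul_mem hH this
  by_cases hb : ap g (eV k : V) (.inr k) = 0
  · have := step1 (tv (fV k : V) 1 * g) (mul_mem (hsk _ sf 1) hg) (by
      rw [ap_mul, hcomb _ (himg g (eV k) hg se), hb, zero_smul, add_zero, ap_smul, ap_tv, one_mul, h21]
      have hne : ap g (eV k : V) (.inl k) ≠ 0 := fun h0 => by
        have := hcomb _ (himg g (eV k) hg se)
        rw [h0, hb, zero_smul, zero_smul, add_zero] at this
        have := congrArg (ap g⁻¹) this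
        rw [ap_inv_left, ap_zero] at this
        simpa [eV] using congrFun this (.inl k)
      simpa [eV, fV] using hne)
    simpa [← mul_assoc] using mul_mem (inv_mem (hf 1)) this
  · exact step1 g hg hb

end CfsgLib.Chev.SpSlim
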