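import Cfsg.Agent.Chev.SpSlim.Step

/-!
# The graph over the symplectic group of one more pair
-/

set_option autoImplicit false

namespace CfsgLib.Chev.SpSlim

open Matrix CfsgLib.SpGeom

universe u v

namespace Step

variable {n : ℕ} {F : Type u} [Field F] {H : Type v} [Group H] (D : Step n F H)

local notation "V" => (Fin n ⊕ Fin n → F)
local notation "P" => (Matrix.symplecticGroup (Fin n) F × H)

/-- Two elements of the parabolic graph are equal when they agree on the new plane and fix its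
orthogonal. -/
theorem eq_of_plane {x y : P} (hx : x ∈ D.ΓP) (hy : y ∈ D.ΓP)
    (he : ap x.1 (eV D.k) = ap y.1 (eV D.k)) (hf : ap x.1 (fV D.k) = ap y.1 (fV D.k))
    (hx' : ∀ v, bo (eV D.k) v = 0 → bo (fV D.k) v = 0 → ap x.1 v = v)
    (hy' : ∀ v, bo (eV D.k) v = 0 → bo (fV D.k) v = 0 → ap y.1 v = v) : x = y := by
  refine D.hP.eq hx hy (ext_ap fun v => ?_)
  have h1 : bo (eV D.k : V) (fV D.k) = 1 := bo_eV_fV _
  have h2 : bo (fV D.k : V) (eV D.k) = -1 := by rw [bo_skew, h1]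
  set r := v - bo v (fV D.k) • eV D.k - bo (eV D.k) v • fV D.k with hr
  have r1 : bo (eV D.k) r = 0 := by
    simp only [hr, bo_sub_right, bo_smul_right, bo_self, h1]; ring
  have r2 : bo (fV D.k) r = 0 := by
    simp only [hr, bo_sub_right, bo_smul_right, bo_self, h2]
    rw [bo_skew v]; ring
  have hv : v = bo v (fV D.k) • eV D.k + bo (eV D.k) v • fV D.k + r := by rw [hr]; abel
  rw [hv, ap_add, ap_add, ap_smul, ap_smul, ap_add, ap_add, ap_smul, ap_smul, he, hf, hx' r r1 r2,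
    hy' r r1 r2]

theorem Te_fix (c : F) (v : V) (h1 : bo (eV D.k) v = 0) : ap (D.Te c).1 v = v := by
  rw [D.hTe, ap_tv_fix _ _ h1]

theorem Tf_fix (c : F) (v : V) (h2 : bo (fV D.k) v = 0) : ap (D.Tf c).1 v = v := by
  rw [D.hTf, ap_tv_fix _ _ h2]

theorem w_fix (c : F) (v : V) (h1 : bo (eV D.k) v = 0) (h2 : bo (fV D.k) v = 0) :
    ap (D.w c).1 v = v := by
  simp only [w, Prod.fst_mul, ap_mul, D.Te_fix _ v h1, D.Tf_fix _ v h2]

theorem hh_fix (μ : F) (v : V) (h1 : bo (eV D.k) v = 0) (h2 : bo (fV D.k) v = 0) :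
    ap (D.hh μ).1 v = v := by
  rw [hh, Prod.fst_mul, Prod.fst_inv, ap_mul, ap_inv_of _ (D.w_fix 1 v h1 h2), D.w_fix μ v h1 h2]

theorem hh_one : D.hh 1 = 1 := mul_inv_cancel _

theorem ap_Te_e (c : F) : ap (D.Te c).1 (eV D.k) = eV D.k := D.Te_fix c _ (bo_self _)

theorem ap_Te_f (c : F) : ap (D.Te c).1 (fV D.k) = fV D.k + c • eV D.k := by
  rw [D.hTe, ap_tv, bo_eV_fV, mul_one]

theorem ap_Tf_f (c : F) : ap (D.Tf c).1 (fV D.k) = fV D.k := D.Tf_fix c _ (bo_self _)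

theorem ap_Tf_e (c : F) : ap (D.Tf c).1 (eV D.k) = eV D.k - c • fV D.k := by
  rw [D.hTf, ap_tv, bo_skew (eV D.k), bo_eV_fV, mul_neg, mul_one, neg_smul, sub_eq_add_neg]

theorem hh_mul {a b : F} (ha : a ≠ 0) (hb : b ≠ 0) : D.hh a * D.hh b = D.hh (a * b) := by
  obtain ⟨a1, a2, -⟩ := D.ap_hh ha
  obtain ⟨b1, b2, -⟩ := D.ap_hh hb
  obtain ⟨c1, c2, -⟩ := D.ap_hh (mul_ne_zero ha hb)
  refine D.eq_of_plane (mul_mem (D.hh_mem a) (D.hh_mem b)) (D.hh_mem _) ?_ ?_ (fun v h1 h2 => ?_)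
    (D.hh_fix _)
  · rw [Prod.fst_mul, ap_mul, b1, ap_smul, a1, c1, smul_smul, mul_comm]
  · rw [Prod.fst_mul, ap_mul, b2, ap_smul, a2, c2, smul_smul, ← mul_inv, mul_comm]
  · rw [Prod.fst_mul, ap_mul, D.hh_fix b v h1 h2, D.hh_fix a v h1 h2]

theorem hh_Tf {μ : F} (hμ : μ ≠ 0) (d : F) : D.hh μ * D.Tf d = D.Tf (d / μ ^ 2) * D.hh μ := by
  obtain ⟨a1, a2, -⟩ := D.ap_hh hμ
  refine D.eq_of_plane (mul_mem (D.hh_mem μ) (D.hTfP _)) (mul_mem (D.hTfP _) (D.hh_mem μ)) ?_ ?_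
    (fun v h1 h2 => ?_) (fun v h1 h2 => ?_)
  · rw [Prod.fst_mul, Prod.fst_mul, ap_mul, ap_mul, ap_Tf_e, sub_eq_add_neg, ap_add, ap_neg, ap_smul,
      a1, a2, ap_smul, ap_Tf_e, smul_sub, smul_smul, smul_smul, ← sub_eq_add_neg]
    congr 2
    field_simp
  · rw [Prod.fst_mul, Prod.fst_mul, ap_mul, ap_mul, ap_Tf_f, a2, ap_smul, ap_Tf_f]
  · rw [Prod.fst_mul, ap_mul, D.Tf_fix _ v h2, D.hh_fix μ v h1 h2]
  · rw [Prod.fst_mul, ap_mul, D.hh_fix μ v h1 h2, D.Tf_fix _ v h2]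

theorem Te_hh {μ : F} (hμ : μ ≠ 0) (c : F) : D.Te c * D.hh μ = D.hh μ * D.Te (c / μ ^ 2) := by
  obtain ⟨a1, a2, -⟩ := D.ap_hh hμ
  refine D.eq_of_plane (mul_mem (D.hTeP _) (D.hh_mem μ)) (mul_mem (D.hh_mem μ) (D.hTeP _)) ?_ ?_
    (fun v h1 h2 => ?_) (fun v h1 h2 => ?_)
  · rw [Prod.fst_mul, Prod.fst_mul, ap_mul, ap_mul, ap_Te_e, a1, ap_smul, ap_Te_e]
  · rw [Prod.fst_mul, Prod.fst_mul, ap_mul, ap_mul, a2, ap_smul, ap_Te_f, ap_Te_f, ap_add, ap_smul,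
      a1, a2, smul_add, smul_smul, smul_smul]
    congr 2
    field_simp
  · rw [Prod.fst_mul, ap_mul, D.hh_fix μ v h1 h2, D.Te_fix _ v h1]
  · rw [Prod.fst_mul, ap_mul, D.Te_fix _ v h1, D.hh_fix μ v h1 h2]

theorem bigcell {c d : F} (hμ : 1 - c * d ≠ 0) :
    D.Te c * D.Tf d = D.Tf (d / (1 - c * d)) * D.hh (1 - c * d) * D.Te (c / (1 - c * d)) := by
  obtain ⟨a1, a2, -⟩ := D.ap_hh hμ
  refine D.eq_of_plane (mul_mem (D.hTeP _) (D.hTfP _))
    (mul_mem (mul_mem (D.hTfP _) (D.hh_mem _)) (D.hTeP _)) ?_ ?_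
    (fun v h1 h2 => ?_) (fun v h1 h2 => ?_)
  · simp only [Prod.fst_mul, ap_mul, ap_Tf_e, ap_Te_e, a1, ap_smul]
    simp only [sub_eq_add_neg, ap_add, ap_neg, ap_smul, ap_Te_e, ap_Te_f]
    have hμ' : 1 + -(c * d) ≠ 0 := by rwa [← sub_eq_add_neg]
    match_scalars <;> field_simp <;> ring_nf
    have hd' : 1 - d * c ≠ 0 := by rwa [mul_comm]
    linear_combination d * mul_inv_cancel₀ hd'
  · simp only [Prod.fst_mul, ap_mul, ap_Tf_f, ap_Te_f, ap_add, ap_smul, a1, a2, ap_Tf_e, smul_sub,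
      smul_smul]
    rw [div_mul_cancel₀ _ hμ]
    match_scalars <;> field_simp
    ring
  · simp only [Prod.fst_mul, ap_mul, D.Te_fix _ v h1, D.Tf_fix _ v h2]
  · simp only [Prod.fst_mul, ap_mul, D.Te_fix _ v h1, D.hh_fix _ v h1 h2, D.Tf_fix _ v h2]

/-- The big cell. -/
def IsY (x : P) : Prop :=
  ∃ (d : F) (u : V) (μ : F) (g : P) (p : V) (c : F), u ∈ headSub n F (D.k : ℕ) ∧ μ ≠ 0 ∧ g ∈ D.ΓK ∧
    p ∈ headSub n F (D.k : ℕ) ∧ x = D.Tf d * D.U' u * D.hh μ * g * D.U p * D.Te c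

theorem isY_one : D.IsY 1 :=
  ⟨0, 0, 1, 1, 0, 0, zero_mem _, one_ne_zero, one_mem _, zero_mem _, by
    simp [Tf_zero, U'_zero, hh_one, U_zero, Te_zero]⟩

variable {D}

theorem IsY.mul_Te {y : P} (hy : D.IsY y) (c' : F) : D.IsY (y * D.Te c') := by
  obtain ⟨d, u, μ, g, p, c, hu, hμ, hg, hp, rfl⟩ := hy
  exact ⟨d, u, μ, g, p, c + c', hu, hμ, hg, hp, by rw [mul_assoc _ (D.Te c), Te_add]⟩

theorem IsY.mul_U {y : P} (hy : D.IsY y) {p' : V} (hp' : p' ∈ headSub n F (D.k : ℕ)) :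
    D.IsY (y * D.U p') := by
  obtain ⟨d, u, μ, g, p, c, hu, hμ, hg, hp, rfl⟩ := hy
  refine ⟨d, u, μ, g, p + p', bo p p' + c, hu, hμ, hg, add_mem hp hp', ?_⟩
  rw [mul_assoc _ (D.Te c), ← D.U_Te hp', ← mul_assoc, mul_assoc _ (D.U p), D.U_add hp hp',
    ← mul_assoc, mul_assoc _ (D.Te (bo p p')), Te_add]

theorem IsY.mul_K {y : P} (hy : D.IsY y) {g' : P} (hg' : g' ∈ D.ΓK) : D.IsY (y * g') := by
  obtain ⟨d, u, μ, g, p, c, hu, hμ, hg, hp, rfl⟩ := hy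
  refine ⟨d, u, μ, g * g', ap g'⁻¹.1 p, c, hu, hμ, mul_mem hg hg', D.maps (inv_mem hg') hp, ?_⟩
  rw [← D.U_conj (inv_mem hg') hp, MulAut.conj_apply, inv_inv, mul_assoc _ (D.Te c),
    ← (D.hcomm g' hg' c).1]
  group

theorem IsY.mul_hh {y : P} (hy : D.IsY y) {ν : F} (hν : ν ≠ 0) : D.IsY (y * D.hh ν) := by
  obtain ⟨d, u, μ, g, p, c, hu, hμ, hg, hp, rfl⟩ := hy
  refine ⟨d, u, μ * ν, g, ν⁻¹ • p, c / ν ^ 2, hu, mul_ne_zero hμ hν, hg,
    Submodule.smul_mem _ _ hp, ?_⟩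
  have hU : D.U p * D.hh ν = D.hh ν * D.U (ν⁻¹ • p) := by
    have := (D.hh_U hν (Submodule.smul_mem _ ν⁻¹ hp)).1
    rw [smul_inv_smul₀ hν, MulAut.conj_apply, mul_inv_eq_iff_eq_mul] at this
    exact this.symm
  have hgh : g * D.hh ν = D.hh ν * g := by
    have := D.hh_commute hg ν
    rwa [MulAut.conj_apply, mul_inv_eq_iff_eq_mul] at this
  rw [mul_assoc _ (D.Te c), D.Te_hh hν, ← mul_assoc, mul_assoc _ (D.U p), hU, ← mul_assoc,
    mul_assoc _ g, hgh, ← mul_assoc, mul_assoc _ (D.hh μ), D.hh_mul hμ hν]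

theorem IsY.Tf_mul {y : P} (hy : D.IsY y) (d' : F) : D.IsY (D.Tf d' * y) := by
  obtain ⟨d, u, μ, g, p, c, hu, hμ, hg, hp, rfl⟩ := hy
  exact ⟨d' + d, u, μ, g, p, c, hu, hμ, hg, hp, by simp only [← mul_assoc, Tf_add]⟩

theorem IsY.U'_mul {y : P} (hy : D.IsY y) {a : V} (ha : a ∈ headSub n F (D.k : ℕ)) :
    D.IsY (D.U' a * y) := by
  obtain ⟨d, u, μ, g, p, c, hu, hμ, hg, hp, rfl⟩ := hy
  refine ⟨d + bo a u, a + u, μ, g, p, c, add_mem ha hu, hμ, hg, hp, ?_⟩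
  simp only [← mul_assoc]
  rw [D.U'_Tf ha, mul_assoc _ (D.U' a), D.U'_add ha hu, D.U'_Tf (add_mem ha hu), ← mul_assoc, Tf_add]

theorem IsY.K_mul {y : P} (hy : D.IsY y) {g' : P} (hg' : g' ∈ D.ΓK) : D.IsY (g' * y) := by
  obtain ⟨d, u, μ, g, p, c, hu, hμ, hg, hp, rfl⟩ := hy
  refine ⟨d, ap g'.1 u, μ, g' * g, p, c, D.maps hg' hu, hμ, mul_mem hg' hg, hp, ?_⟩
  have hgh : g' * D.hh μ = D.hh μ * g' := by
    have := D.hh_commute hg' μ
    rwa [MulAut.conj_apply, mul_inv_eq_iff_eq_mul] at this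
  have hU : D.U' (ap g'.1 u) * g' = g' * D.U' u := by
    rw [← D.U'_conj hg' hu, MulAut.conj_apply]; group
  simp only [← mul_assoc]
  rw [(D.hcomm g' hg' d).2, mul_assoc (D.Tf d) g', ← hU, ← mul_assoc, mul_assoc _ g', hgh, ← mul_assoc]

theorem IsY.hh_mul' {y : P} (hy : D.IsY y) {ν : F} (hν : ν ≠ 0) : D.IsY (D.hh ν * y) := by
  obtain ⟨d, u, μ, g, p, c, hu, hμ, hg, hp, rfl⟩ := hy
  refine ⟨d / ν ^ 2, ν⁻¹ • u, ν * μ, g, p, c, Submodule.smul_mem _ _ hu, mul_ne_zero hν hμ, hg, hp, ?_⟩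
  have hU : D.hh ν * D.U' u = D.U' (ν⁻¹ • u) * D.hh ν := by
    rw [← (D.hh_U hν hu).2, MulAut.conj_apply]; group
  simp only [← mul_assoc]
  rw [D.hh_Tf hν, mul_assoc _ (D.hh ν), hU, ← mul_assoc, mul_assoc _ (D.hh ν), D.hh_mul hν hμ]

variable (D)

theorem T_commute_U {u v : V} (hu : u ∈ headSub n F (D.k : ℕ)) (hv : v ∈ headSub n F (D.k : ℕ))
    (h : bo u v = 0) (s : F) : D.T u s * D.U v = D.U v * D.T u s := by
  refine mul_inv_eq_iff_eq_mul.1 ?_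
  rw [← MulAut.conj_apply, D.U_conj (D.T_mem hu _) hv, D.T_fst hu, ap_tv_fix _ _ h]

theorem core {r u : V} (hr : r ∈ headSub n F (D.k : ℕ)) (hu : u ∈ headSub n F (D.k : ℕ))
    (h : bo r u ≠ 1) : D.IsY (D.U r * D.U' u) := by
  have hT : D.T u 1 * D.T u (-1) = 1 :=
    D.hK.eq (mul_mem (D.T_mem hu _) (D.T_mem hu _)) (one_mem _) (by
      rw [Prod.fst_mul, D.T_fst hu, D.T_fst hu, tv_mul, add_neg_cancel, tv_zero]; rfl)
  have hTU' : D.T u (-1) * D.U' u = D.U' u * D.T u (-1) := by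
    refine mul_inv_eq_iff_eq_mul.1 ?_
    rw [← MulAut.conj_apply, D.U'_conj (D.T_mem hu _) hu, D.T_fst hu, ap_tv_fix _ _ (bo_self _)]
  have eU : D.U' u = D.Tf (-1) * D.U u * D.Tf 1 * D.U (-u) * D.T u (-1) := by
    rw [mul_assoc (D.Tf (-1)) (D.U u), D.U_Tf 1 hu, one_smul]
    simp only [← mul_assoc]
    rw [Tf_add, neg_add_cancel, Tf_zero, one_mul, mul_assoc _ (D.U u), ← D.U_inv hu, mul_inv_cancel,
      mul_one, mul_assoc, ← hTU', ← mul_assoc, hT, one_mul]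
  have hμ : 1 - bo r u * 1 ≠ 0 := by rw [mul_one]; exact sub_ne_zero.2 (Ne.symm h)
  set μ := 1 - bo r u * 1
  have hru : r + u ∈ headSub n F (D.k : ℕ) := add_mem hr hu
  have e : D.U r * D.U' u = D.Tf (-1) * (D.T r (-1) * (D.U' ((-1 : F) • r) * (D.Tf (1 / μ) *
      (D.T (r + u) (1 / μ) * (D.U' ((1 / μ) • (r + u)) *
        (1 * D.U (r + u) * D.hh μ * D.Te (bo r u / μ) * D.U (-u) * D.T u (-1))))))) := by
    rw [eU]
    simp only [← mul_assoc, mul_one]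
    rw [D.U_Tf (-1) hr, mul_assoc _ (D.U r) (D.U u), D.U_add hr hu, ← mul_assoc,
      mul_assoc _ (D.Te (bo r u)), D.bigcell hμ, ← mul_assoc, ← mul_assoc, mul_assoc _ (D.U (r + u)),
      D.U_Tf _ hru]
    simp only [← mul_assoc]
    rfl
  rw [e]
  exact ((((((((D.isY_one.mul_U hru).mul_hh hμ).mul_Te _).mul_U (neg_mem hu)).mul_K (D.T_mem hu _)).U'_mul
    (Submodule.smul_mem _ _ hru)).K_mul (D.T_mem hru _)).Tf_mul _ |>.U'_mul
    (Submodule.smul_mem _ _ hr)).K_mul (D.T_mem hr _) |>.Tf_mul _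

/-- The coefficient of the first new vector. -/
def alpha (x : P) : F := bo (ap x.1 (eV D.k)) (fV D.k)

theorem ap_U_f {r : V} (hr : r ∈ headSub n F (D.k : ℕ)) :
    ap (D.U r).1 (fV D.k) = fV D.k + r := by
  rw [D.U_fst hr, ap_Eich (D.orth hr).1, bo_eV_fV, (D.orth hr).2.2.2, one_smul, zero_smul, add_zero]

theorem ap_U_e {r : V} (hr : r ∈ headSub n F (D.k : ℕ)) : ap (D.U r).1 (eV D.k) = eV D.k := by
  rw [D.U_fst hr, ap_Eich_fix (D.orth hr).1 (bo_self _) (D.orth hr).2.2.1]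

theorem ap_U_vec {r u : V} (hr : r ∈ headSub n F (D.k : ℕ)) (hu : u ∈ headSub n F (D.k : ℕ)) :
    ap (D.U r).1 u = u + bo r u • eV D.k := by
  rw [D.U_fst hr, ap_Eich (D.orth hr).1, (D.orth hu).1, zero_smul, add_zero]

theorem ap_U'_e {u : V} (hu : u ∈ headSub n F (D.k : ℕ)) :
    ap (D.U' u).1 (eV D.k) = eV D.k - u := by
  rw [D.U'_fst hu, ap_Eich (D.orth hu).2.1, (D.orth hu).2.2.1, bo_skew (eV D.k), bo_eV_fV]
  module

theorem ap_Y {d μ c : F} {u p : V} {g : P} (hu : u ∈ headSub n F (D.k : ℕ)) (hμ : μ ≠ 0)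
    (hg : g ∈ D.ΓK) (hp : p ∈ headSub n F (D.k : ℕ)) :
    ap (D.Tf d * D.U' u * D.hh μ * g * D.U p * D.Te c).1 (eV D.k) =
      μ • (eV D.k - d • fV D.k - u) := by
  simp only [Prod.fst_mul, ap_mul, ap_Te_e, D.ap_U_e hp, (D.fix hg).1, (D.ap_hh hμ).1, ap_smul,
    D.ap_U'_e hu]
  rw [sub_eq_add_neg (eV D.k), ap_add, ap_neg, ap_Tf_e, D.Tf_fix _ u (D.orth hu).2.1, ← sub_eq_add_neg]

theorem ap_Z {d μ c c' : F} {u p r : V} {g : P} (hu : u ∈ headSub n F (D.k : ℕ)) (hμ : μ ≠ 0)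
    (hg : g ∈ D.ΓK) (hp : p ∈ headSub n F (D.k : ℕ)) (hr : r ∈ headSub n F (D.k : ℕ)) :
    ap (D.U r * D.Te c' * (D.Tf d * D.U' u * D.hh μ * g * D.U p * D.Te c)).1 (eV D.k) =
      μ • ((1 - c' * d - bo r u) • eV D.k - d • fV D.k - (u + d • r)) := by
  rw [Prod.fst_mul, ap_mul, D.ap_Y hu hμ hg hp, Prod.fst_mul, ap_mul]
  simp only [sub_eq_add_neg, ap_add, ap_neg, ap_smul, ap_Te_e, ap_Te_f, D.Te_fix _ u (D.orth hu).1,
    D.ap_U_f hr, D.ap_U_e hr, D.ap_U_vec hr hu]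
  module

theorem alpha_eq {d μ c c' : F} {u p r : V} {g : P} (hu : u ∈ headSub n F (D.k : ℕ)) (hμ : μ ≠ 0)
    (hg : g ∈ D.ΓK) (hp : p ∈ headSub n F (D.k : ℕ)) (hr : r ∈ headSub n F (D.k : ℕ)) :
    D.alpha (D.U r * D.Te c' * (D.Tf d * D.U' u * D.hh μ * g * D.U p * D.Te c)) =
      μ * (1 - c' * d - bo r u) := by
  rw [alpha, D.ap_Z hu hμ hg hp hr]
  simp only [bo_smul_left, bo_sub_left, bo_add_left, bo_eV_fV, bo_self, (D.orth hu).2.2.2,
    (D.orth hr).2.2.2]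
  ring

theorem isY_U_mul {r : V} (hr : r ∈ headSub n F (D.k : ℕ)) {y : P} (hy : D.IsY y)
    (h : D.alpha (D.U r * y) ≠ 0) : D.IsY (D.U r * y) := by
  obtain ⟨d, u, μ, g, p, c, hu, hμ, hg, hp, rfl⟩ := hy
  have h' := D.alpha_eq (d := d) (μ := μ) (c := c) (c' := 0) hu hμ hg hp hr
  rw [Te_zero, mul_one] at h'
  rw [h', zero_mul, sub_zero] at h
  have hne : bo r u ≠ 1 := fun e => h (by rw [e, sub_self, mul_zero])
  have e : D.U r * (D.Tf d * D.U' u * D.hh μ * g * D.U p * D.Te c) =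
      D.Tf d * (D.T r d * (D.U' (d • r) * (D.U r * D.U' u * D.hh μ * g * D.U p * D.Te c))) := by
    simp only [← mul_assoc]
    rw [D.U_Tf d hr]
  rw [e]
  exact ((((((D.core hr hu hne).mul_hh hμ).mul_K hg).mul_U hp).mul_Te c).U'_mul
    (Submodule.smul_mem _ _ hr)).K_mul (D.T_mem hr _) |>.Tf_mul _

theorem isY_Te_mul (c' : F) {y : P} (hy : D.IsY y)
    (h : D.alpha (D.Te c' * y) ≠ 0) : D.IsY (D.Te c' * y) := by
  obtain ⟨d, u, μ, g, p, c, hu, hμ, hg, hp, rfl⟩ := hy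
  have h' := D.alpha_eq (d := d) (μ := μ) (c := c) (c' := c') hu hμ hg hp (zero_mem _)
  rw [U_zero, one_mul, bo_zero_left, sub_zero] at h'
  rw [h'] at h
  have hne : 1 - c' * d ≠ 0 := right_ne_zero_of_mul h
  set ν := 1 - c' * d
  have hcu : (c' / ν) • u ∈ headSub n F (D.k : ℕ) := Submodule.smul_mem _ _ hu
  have hz : bo ((c' / ν) • u) u ≠ 1 := by
    rw [bo_smul_left, bo_self, mul_zero]; exact zero_ne_one
  have e : D.Te c' * (D.Tf d * D.U' u * D.hh μ * g * D.U p * D.Te c) =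
      D.Tf (d / ν) * (D.hh ν * (D.U ((c' / ν) • u) * D.U' u * D.T u (-(c' / ν)) * D.Te (c' / ν) *
        D.hh μ * g * D.U p * D.Te c)) := by
    simp only [← mul_assoc]
    rw [D.bigcell hne, mul_assoc _ (D.Te (c' / ν)), D.Te_U'_conj _ hu]
    simp only [← mul_assoc]
    rfl
  rw [e]
  exact ((((((((D.core hcu hu hz).mul_K (D.T_mem hu _)).mul_Te _).mul_hh hμ).mul_K hg).mul_U hp).mul_Te
    c).hh_mul' hne).Tf_mul _

/-- An element of the parabolic times the big cell, sent into the big cell. -/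
theorem isY_of_alpha {r : V} (hr : r ∈ headSub n F (D.k : ℕ)) (c' : F) {y : P} (hy : D.IsY y)
    (h : D.alpha (D.U r * D.Te c' * y) ≠ 0) : D.IsY (D.U r * D.Te c' * y) := by
  obtain ⟨d, u, μ, g, p, c, hu, hμ, hg, hp, rfl⟩ := id hy
  set Y := D.Tf d * D.U' u * D.hh μ * g * D.U p * D.Te c
  have hα := fun c'' => D.alpha_eq (d := d) (μ := μ) (c := c) (c' := c'') hu hμ hg hp hr
  have hα0 := fun c'' => D.alpha_eq (d := d) (μ := μ) (c := c) (c' := c'') hu hμ hg hp (zero_mem _)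
  obtain ⟨c1, g1, g2⟩ : ∃ c1, 1 - c1 * d ≠ 0 ∧ 1 - c1 * d - bo r u ≠ 0 := by
    by_cases hd : d = 0
    · refine ⟨0, by simp, ?_⟩
      rw [hα, hd] at h
      simpa [hd] using right_ne_zero_of_mul h
    obtain ⟨a, ha0, ha1⟩ := D.hF
    by_cases e1 : 1 - bo r u = 0
    · -- any value different from zero and one
      refine ⟨a / d, ?_, ?_⟩
      · rw [div_mul_cancel₀ _ hd]; exact sub_ne_zero.2 (Ne.symm ha1)
      · rw [div_mul_cancel₀ _ hd, sub_right_comm, e1, zero_sub]; exact neg_ne_zero.2 ha0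
    · exact ⟨0, by simp, by simpa using e1⟩
  have h1 : D.IsY (D.Te c1 * Y) := by
    refine D.isY_Te_mul c1 hy ?_
    have := hα0 c1
    rw [U_zero, one_mul] at this
    rw [this, bo_zero_left, sub_zero]
    exact mul_ne_zero hμ g1
  have h2 : D.IsY (D.U r * (D.Te c1 * Y)) := by
    refine D.isY_U_mul hr h1 ?_
    rw [← mul_assoc, hα]
    exact mul_ne_zero hμ g2
  have e : D.U r * D.Te c' * Y = D.Te (c' - c1) * (D.U r * (D.Te c1 * Y)) := by
    simp only [← mul_assoc]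
    rw [← D.U_Te hr, mul_assoc (D.U r) (D.Te (c' - c1)), Te_add, sub_add_cancel]
  rw [e] at h ⊢
  exact D.isY_Te_mul _ h2 h

/-- The parabolic times the big cell. -/
def IsZ (x : P) : Prop :=
  ∃ r ∈ headSub n F (D.k : ℕ), ∃ c y, D.IsY y ∧ x = D.U r * D.Te c * y

theorem isZ_of_isY {y : P} (hy : D.IsY y) : D.IsZ y :=
  ⟨0, zero_mem _, 0, y, hy, by rw [U_zero, Te_zero, one_mul, one_mul]⟩

theorem isZ_Te (s : F) {x : P} (hx : D.IsZ x) : D.IsZ (D.Te s * x) := by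
  obtain ⟨r, hr, c, y, hy, rfl⟩ := hx
  refine ⟨r, hr, s + c, y, hy, ?_⟩
  simp only [← mul_assoc]
  rw [← D.U_Te hr, mul_assoc (D.U r), Te_add]

theorem isZ_U {a : V} (ha : a ∈ headSub n F (D.k : ℕ)) {x : P} (hx : D.IsZ x) :
    D.IsZ (D.U a * x) := by
  obtain ⟨r, hr, c, y, hy, rfl⟩ := hx
  refine ⟨a + r, add_mem ha hr, bo a r + c, y, hy, ?_⟩
  simp only [← mul_assoc]
  rw [D.U_add ha hr, mul_assoc (D.U (a + r)), Te_add]

theorem isZ_K {g : P} (hg : g ∈ D.ΓK) {x : P} (hx : D.IsZ x) : D.IsZ (g * x) := by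
  obtain ⟨r, hr, c, y, hy, rfl⟩ := hx
  refine ⟨ap g.1 r, D.maps hg hr, c, g * y, hy.K_mul hg, ?_⟩
  rw [← D.U_conj hg hr, MulAut.conj_apply]
  have := (D.hcomm g hg c).1
  calc g * (D.U r * D.Te c * y) = g * D.U r * g⁻¹ * (g * D.Te c) * y := by group
    _ = g * D.U r * g⁻¹ * (D.Te c * g) * y := by rw [this]
    _ = _ := by group

theorem isZ_Tf (s : F) {x : P} (hx : D.IsZ x) : D.IsZ (D.Tf s * x) := by
  obtain ⟨r, hr, c, y, hy, rfl⟩ := hx
  obtain ⟨d, u, μ, g, p, c0, hu, hμ, hg, hp, rfl⟩ := id hy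
  set Y := D.Tf d * D.U' u * D.hh μ * g * D.U p * D.Te c0
  have hα := fun r (hr : r ∈ headSub n F (D.k : ℕ)) c' =>
    D.alpha_eq (d := d) (μ := μ) (c := c0) (c' := c') hu hμ hg hp hr
  by_cases ha : D.alpha (D.U r * D.Te c * Y) ≠ 0
  · exact D.isZ_of_isY ((D.isY_of_alpha hr c hy ha).Tf_mul s)
  push Not at ha
  rw [hα r hr, mul_eq_zero] at ha
  have hzero := ha.resolve_left hμ
  have hud : u + d • r ∈ headSub n F (D.k : ℕ) := add_mem hu (Submodule.smul_mem _ _ hr)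
  by_cases hu0 : u + d • r = 0
  · have hru : bo r u = 0 := by
      rw [show u = -(d • r) from eq_neg_of_add_eq_zero_left hu0, bo_neg_right, bo_smul_right, bo_self,
        mul_zero, neg_zero]
    rw [hru, sub_zero] at hzero
    have hd : d ≠ 0 := fun e => by rw [e] at hzero; simp at hzero
    obtain ⟨κ, hκ, hs⟩ : ∃ κ : F, κ ≠ 0 ∧ 1 + s * κ ≠ 0 := by
      by_cases h0 : 1 + s = 0
      · obtain ⟨a, ha0, ha1⟩ := D.hF
        refine ⟨a, ha0, ?_⟩
        rw [show s = -1 from (neg_eq_of_add_eq_zero_right h0).symm, neg_one_mul, ← sub_eq_add_neg]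
        exact sub_ne_zero.2 (Ne.symm ha1)
      · exact ⟨1, one_ne_zero, by rwa [mul_one]⟩
    have hy2 : D.IsY (D.U r * D.Te (κ + c) * Y) := by
      refine D.isY_of_alpha hr _ hy ?_
      rw [hα r hr, hru, sub_zero, add_mul, ← sub_sub, sub_right_comm, hzero, zero_sub]
      exact mul_ne_zero hμ (neg_ne_zero.2 (mul_ne_zero hκ hd))
    set ν := (1 + s * κ)⁻¹
    have hν : ν ≠ 0 := inv_ne_zero hs
    have key : D.Tf s * D.Te (-κ) = D.Te (-κ * ν) * D.Tf (s / ν) * D.hh ν := by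
      obtain ⟨a1, a2, -⟩ := D.ap_hh hν
      refine D.eq_of_plane (mul_mem (D.hTfP _) (D.hTeP _))
        (mul_mem (mul_mem (D.hTeP _) (D.hTfP _)) (D.hh_mem _)) ?_ ?_
        (fun v h1 h2 => ?_) (fun v h1 h2 => ?_)
      · simp only [Prod.fst_mul, ap_mul, ap_Te_e, a1, ap_smul, ap_Tf_e, sub_eq_add_neg, ap_add, ap_neg,
          ap_Te_f]
        have hs' : 1 + κ * s ≠ 0 := by rwa [mul_comm]
        match_scalars <;> simp only [ν] <;> field_simp <;> first | ring | rw [div_self hs']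
      · simp only [Prod.fst_mul, ap_mul, ap_Tf_f, ap_Te_f, a2, ap_smul, ap_add, ap_Tf_e]
        have hs' : 1 + κ * s ≠ 0 := by rwa [mul_comm]
        match_scalars <;> simp only [ν] <;> field_simp <;> first | ring | rw [div_self hs']
      · simp only [Prod.fst_mul, ap_mul, D.Te_fix _ v h1, D.Tf_fix _ v h2]
      · simp only [Prod.fst_mul, ap_mul, D.Te_fix _ v h1, D.hh_fix _ v h1 h2, D.Tf_fix _ v h2]
    refine ⟨0, zero_mem _, -κ * ν, D.Tf (s / ν) * (D.hh ν * (D.U r * D.Te (κ + c) * Y)),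
      (hy2.hh_mul' hν).Tf_mul _, ?_⟩
    rw [U_zero, one_mul]
    have e1 : D.U r * D.Te c = D.Te (-κ) * (D.U r * D.Te (κ + c)) := by
      rw [← mul_assoc, ← D.U_Te hr, mul_assoc, Te_add, neg_add_cancel_left]
    rw [e1]
    simp only [← mul_assoc]
    rw [key]
  · obtain ⟨z, hz, hz'⟩ := nondeg_headSub (D.k : ℕ) _ hud hu0
    have hzu : bo z (u + d • r) ≠ 0 := hz'
    have hy2 : D.IsY (D.U (z + r) * D.Te (bo z r + c) * Y) := by
      refine D.isY_of_alpha (add_mem hz hr) _ hy ?_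
      rw [hα _ (add_mem hz hr)]
      refine mul_ne_zero hμ ?_
      rw [bo_add_left, show 1 - (bo z r + c) * d - (bo z u + bo r u) =
        (1 - c * d - bo r u) - bo z (u + d • r) by rw [bo_add_right, bo_smul_right]; ring, hzero, zero_sub]
      exact neg_ne_zero.2 hzu
    have e : D.Tf s * (D.U r * D.Te c * Y) = D.U (-z) *
        (D.U' (-s • -z) * (D.T (-z) s * (D.Tf s * (D.U (z + r) * D.Te (bo z r + c) * Y)))) := by
      have e1 : D.U r * D.Te c = D.U (-z) * (D.U (z + r) * D.Te (bo z r + c)) := by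
        rw [← mul_assoc, D.U_add (neg_mem hz) (add_mem hz hr), neg_add_cancel_left, mul_assoc, Te_add,
          bo_neg_left, bo_add_right, bo_self, zero_add, neg_add_cancel_left]
      have e2 : D.Tf s * D.U (-z) = D.U (-z) * D.U' (-s • -z) * D.T (-z) s * D.Tf s := by
        rw [← D.Tf_U_conj s (neg_mem hz), MulAut.conj_apply]; group
      rw [e1, mul_assoc (D.U (-z)) _ Y, ← mul_assoc (D.Tf s), e2]
      simp only [mul_assoc]
    rw [e]
    exact D.isZ_U (neg_mem hz) (D.isZ_of_isY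
      (((hy2.Tf_mul s).K_mul (D.T_mem (neg_mem hz) _)).U'_mul
        (Submodule.smul_mem _ _ (neg_mem hz))))

/-- The graph of the next level. -/
def next : Subgroup P :=
  Subgroup.closure ((D.ΓK : Set P) ∪ {x | ∃ c, x = D.Te c ∨ x = D.Tf c ∨ x = D.Eb c})

theorem K_le_next : D.ΓK ≤ D.next := fun _ hx => Subgroup.subset_closure (Or.inl hx)
theorem Te_next (c : F) : D.Te c ∈ D.next := Subgroup.subset_closure (Or.inr ⟨c, Or.inl rfl⟩)
theorem Tf_next (c : F) : D.Tf c ∈ D.next := Subgroup.subset_closure (Or.inr ⟨c, Or.inr (Or.inl rfl)⟩)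
theorem Eb_next (c : F) : D.Eb c ∈ D.next := Subgroup.subset_closure (Or.inr ⟨c, Or.inr (Or.inr rfl)⟩)

theorem isZ_next {x : P} (hx : x ∈ D.next) : D.IsZ x := by
  have hgen : ∀ g, g ∈ (D.ΓK : Set P) ∪ {x | ∃ c, x = D.Te c ∨ x = D.Tf c ∨ x = D.Eb c} →
      (∀ z, D.IsZ z → D.IsZ (g * z)) ∧ ∀ z, D.IsZ z → D.IsZ (g⁻¹ * z) := by
    rintro g (hg | ⟨c, rfl | rfl | rfl⟩)
    · exact ⟨fun z => D.isZ_K hg, fun z => D.isZ_K (inv_mem hg)⟩
    · rw [Te_inv]; exact ⟨fun z => D.isZ_Te c, fun z => D.isZ_Te _⟩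
    · rw [Tf_inv]; exact ⟨fun z => D.isZ_Tf c, fun z => D.isZ_Tf _⟩
    · rw [← U_Eb, D.U_inv (Submodule.smul_mem _ _ D.hjW)]
      exact ⟨fun z => D.isZ_U (Submodule.smul_mem _ _ D.hjW),
        fun z => D.isZ_U (neg_mem (Submodule.smul_mem _ _ D.hjW))⟩
  induction hx using Subgroup.closure_induction_left with
  | one => exact D.isZ_of_isY D.isY_one
  | mul_left g hg z _ hz => exact (hgen g hg).1 z hz
  | inv_mul_cancel g hg z _ hz => exact (hgen g hg).2 z hz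

theorem next_graph : IsGraph D.next := by
  intro x hx hx1
  obtain ⟨r, hr, c, y, ⟨d, u, μ, g, p, c0, hu, hμ, hg, hp, rfl⟩, rfl⟩ := D.isZ_next hx
  have e := congrArg (fun A => ap A (eV D.k)) hx1
  simp only [ap_one] at e
  rw [D.ap_Z hu hμ hg hp hr] at e
  -- reading off the coefficients
  have c1 := congrArg (fun v => bo v (fV D.k)) e
  have c2 := congrArg (fun v => bo (eV D.k) v) e
  simp only [bo_smul_left, bo_sub_left, bo_add_left, bo_eV_fV, bo_self, (D.orth hu).2.2.2,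
    (D.orth hr).2.2.2] at c1
  simp only [bo_smul_right, bo_sub_right, bo_add_right, bo_eV_fV, bo_self, (D.orth hu).1,
    (D.orth hr).1] at c2
  have hd : d = 0 := by
    simp only [mul_zero, add_zero, zero_sub, sub_zero, mul_one, mul_neg, neg_eq_zero, mul_eq_zero] at c2
    exact c2.resolve_left hμ
  subst hd
  simp only [mul_zero, sub_zero, mul_one, add_zero] at c1
  simp only [zero_smul, mul_zero, sub_zero, add_zero, smul_sub, smul_smul, c1, one_smul, sub_eq_self,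
    smul_eq_zero] at e
  have hu0 : u = 0 := e.resolve_left hμ
  subst hu0
  rw [bo_zero_right, sub_zero, mul_one] at c1
  subst c1
  -- now it lies in the parabolic
  have hx' : D.U r * D.Te c * (D.Tf 0 * D.U' 0 * D.hh 1 * g * D.U p * D.Te c0) =
      g * (D.U (ap g⁻¹.1 r + p) * D.Te (bo (ap g⁻¹.1 r) p + (c + c0))) := by
    have hq0 : g * D.U (ap g⁻¹.1 r) = D.U r * g := by
      rw [← D.U_conj (inv_mem hg) hr, MulAut.conj_apply, inv_inv]; group
    rw [Tf_zero, U'_zero, hh_one, one_mul, one_mul, one_mul]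
    calc D.U r * D.Te c * (g * D.U p * D.Te c0)
        = D.U r * (D.Te c * g) * D.U p * D.Te c0 := by group
      _ = D.U r * g * (D.Te c * D.U p) * D.Te c0 := by rw [← (D.hcomm g hg c).1]; group
      _ = g * D.U (ap g⁻¹.1 r) * (D.U p * D.Te c) * D.Te c0 := by rw [← D.U_Te hp, hq0]
      _ = g * (D.U (ap g⁻¹.1 r) * D.U p) * (D.Te c * D.Te c0) := by group
      _ = _ := by
        rw [D.U_add (D.maps (inv_mem hg) hr) hp, ← Te_add D (bo (ap g⁻¹.1 r) p) (c + c0), ← Te_add D c c0]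
        group
  rw [hx'] at hx1 ⊢
  set q := ap g⁻¹.1 r + p
  have hq : q ∈ headSub n F (D.k : ℕ) := add_mem (D.maps (inv_mem hg) hr) hp
  generalize bo (ap g⁻¹.1 r) p + (c + c0) = c3 at hx1 ⊢
  have f1 := congrArg (fun A => ap A (fV D.k)) hx1
  simp only [Prod.fst_mul, ap_mul, ap_Te_f, ap_add, ap_smul, D.ap_U_f hq, D.ap_U_e hq, (D.fix hg).1,
    (D.fix hg).2, ap_one] at f1
  rw [add_assoc, add_eq_left] at f1
  have c3z : c3 = 0 := by
    have := congrArg (fun v => bo v (fV D.k)) f1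
    simpa [bo_add_left, bo_smul_left, bo_eV_fV, (D.orth (D.maps hg hq)).2.2.2, bo_zero_left] using this
  subst c3z
  rw [zero_smul, add_zero] at f1
  have hq0 : q = 0 := by rw [← ap_inv_left g.1 q, f1, ap_zero]
  rw [hq0, U_zero, Te_zero, mul_one, mul_one] at hx1 ⊢
  exact D.hK g hg hx1

theorem U_next {v : V} (hv : v ∈ headSub n F (D.k : ℕ)) : D.U v ∈ D.next := by
  by_cases h0 : v = 0
  · subst h0; rw [U_zero]; exact one_mem _
  · obtain ⟨x, hx, e⟩ := D.exists_vec hv h0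
    rw [D.U_spec hx e, MulAut.conj_apply]
    exact mul_mem (mul_mem (D.K_le_next hx) (D.Eb_next 1)) (inv_mem (D.K_le_next hx))

theorem next_le {x : P} (hx : x ∈ D.next) : x.1 ∈ lev n F ((D.k : ℕ) + 1) := by
  have : D.next ≤ (lev n F ((D.k : ℕ) + 1)).comap (MonoidHom.fst _ _) := by
    rw [next, Subgroup.closure_le]
    rintro y (hy | ⟨c, rfl | rfl | rfl⟩) <;> rw [SetLike.mem_coe, Subgroup.mem_comap, MonoidHom.coe_fst]
    · exact lev_mono (Nat.le_succ _) ((D.hKfst y.1).2 ⟨y, hy, rfl⟩)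
    · rw [D.hTe]; exact tv_mem_lev (eV_mem (Nat.lt_succ_self _)) c
    · rw [D.hTf]; exact tv_mem_lev (fV_mem (Nat.lt_succ_self _)) c
    · rw [D.hEb]
      exact Eich_mem_lev (eV_mem (Nat.lt_succ_self _))
        (Submodule.smul_mem _ _ (eV_mem (by have := D.hjk; omega)))
  exact this hx

theorem next_fst (g : Matrix.symplecticGroup (Fin n) F) :
    g ∈ lev n F ((D.k : ℕ) + 1) ↔ ∃ x ∈ D.next, x.1 = g := by
  constructor
  swap
  · rintro ⟨x, hx, rfl⟩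
    exact D.next_le hx
  intro hg
  have hw : ∀ c, D.w c ∈ D.next := fun c =>
    mul_mem (mul_mem (D.Te_next _) (D.Tf_next _)) (D.Te_next _)
  have big : ∀ (a b : F) (u : V), a ≠ 0 → u ∈ headSub n F (D.k : ℕ) →
      ∃ z ∈ D.next, ap z.1 (eV D.k) = a • eV D.k + b • fV D.k + u := by
    intro a b u ha hu
    have hu' : (-a⁻¹) • u ∈ headSub n F (D.k : ℕ) := Submodule.smul_mem _ _ hu
    have hU' : D.U' ((-a⁻¹) • u) ∈ D.next := by
      rw [U', MulAut.conj_apply]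
      exact mul_mem (mul_mem (hw 1) (D.U_next hu')) (inv_mem (hw 1))
    refine ⟨D.Tf (-b / a) * D.U' ((-a⁻¹) • u) * D.hh a * 1 * D.U 0 * D.Te 0,
      mul_mem (mul_mem (mul_mem (mul_mem (mul_mem (D.Tf_next _) hU') (mul_mem (hw a) (inv_mem (hw 1))))
        (one_mem _)) (D.U_next (zero_mem _))) (D.Te_next _), ?_⟩
    rw [D.ap_Y hu' ha (one_mem _) (zero_mem _)]
    match_scalars <;> field_simp
  obtain ⟨z, hz, hze⟩ : ∃ z ∈ D.next, ap z.1 (eV D.k) = ap g (eV D.k) := by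
    set v := ap g (eV D.k) with hvdef
    have hv : v ∈ headSub n F ((D.k : ℕ) + 1) := lev_maps hg (eV_mem (Nat.lt_succ_self _))
    set u := v - bo v (fV D.k) • eV D.k - bo (eV D.k) v • fV D.k with hudef
    have hu : u ∈ headSub n F (D.k : ℕ) := headSub_split hv
    have hv' : v = bo v (fV D.k) • eV D.k + bo (eV D.k) v • fV D.k + u := by rw [hudef]; abel
    generalize bo v (fV D.k) = a at hv'
    generalize bo (eV D.k) v = b at hv'
    clear_value u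
    by_cases ha : a ≠ 0
    · rw [hv']; exact big a b u ha hu
    push Not at ha
    subst ha
    by_cases hu0 : u = 0
    · subst hu0
      rw [zero_smul, zero_add, add_zero] at hv'
      have hb : b ≠ 0 := fun e => by
        subst e
        rw [zero_smul] at hv'
        have := congrArg (ap g⁻¹) hv'
        rw [hvdef, ap_inv_left, ap_zero] at this
        exact eV_ne_zero _ this
      obtain ⟨z, hz, e⟩ := big b b 0 hb (zero_mem _)
      refine ⟨D.Te (-1) * z, mul_mem (D.Te_next _) hz, ?_⟩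
      rw [hv', Prod.fst_mul, ap_mul, e, add_zero, ap_add, ap_smul, ap_smul, ap_Te_e, ap_Te_f]
      module
    · obtain ⟨r, hr, hr'⟩ := nondeg_headSub (D.k : ℕ) u hu hu0
      have hru : bo r u ≠ 0 := hr'
      obtain ⟨z, hz, e⟩ := big (bo r u) b (u + b • r) hru (add_mem hu (Submodule.smul_mem _ _ hr))
      refine ⟨D.U (-r) * z, mul_mem (D.U_next (neg_mem hr)) hz, ?_⟩
      rw [hv', Prod.fst_mul, ap_mul, e, ap_add, ap_add, ap_add, ap_smul, ap_smul, ap_smul,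
        D.ap_U_e (neg_mem hr), D.ap_U_f (neg_mem hr), D.ap_U_vec (neg_mem hr) hu,
        D.ap_U_vec (neg_mem hr) hr, bo_neg_left, bo_neg_left, bo_self]
      module
  set g' := z.1⁻¹ * g with hg'def
  have hzl : z.1 ∈ lev n F ((D.k : ℕ) + 1) := D.next_le hz
  have hg' : g' ∈ lev n F ((D.k : ℕ) + 1) := mul_mem (inv_mem hzl) hg
  have ge : ap g' (eV D.k) = eV D.k := by rw [hg'def, ap_mul, ← hze, ap_inv_left]
  set v := ap g' (fV D.k) with hvdef
  have hv : v ∈ headSub n F ((D.k : ℕ) + 1) := lev_maps hg' (fV_mem (Nat.lt_succ_self _))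
  have hbv : bo (eV D.k) v = 1 := by rw [hvdef]; conv_lhs => rw [← ge, bo_ap, bo_eV_fV]
  set p := v - bo v (fV D.k) • eV D.k - bo (eV D.k) v • fV D.k with hpdef
  have hp : p ∈ headSub n F (D.k : ℕ) := headSub_split hv
  set q := D.U p * D.Te (bo v (fV D.k)) with hqdef
  have hq : q ∈ D.next := mul_mem (D.U_next hp) (D.Te_next _)
  have qe : ap q.1 (eV D.k) = eV D.k := by rw [hqdef, Prod.fst_mul, ap_mul, ap_Te_e, D.ap_U_e hp]
  have qf : ap q.1 (fV D.k) = v := by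
    rw [hqdef, Prod.fst_mul, ap_mul, ap_Te_f, ap_add, ap_smul, D.ap_U_f hp, D.ap_U_e hp, hpdef, hbv,
      one_smul]
    abel
  have hql : q.1 ∈ lev n F ((D.k : ℕ) + 1) := by
    rw [hqdef, Prod.fst_mul, D.U_fst hp, D.hTe]
    exact mul_mem (Eich_mem_lev (eV_mem (Nat.lt_succ_self _)) (headSub_mono (Nat.le_succ _) hp))
      (tv_mem_lev (eV_mem (Nat.lt_succ_self _)) _)
  have hlast : q.1⁻¹ * g' ∈ lev n F (D.k : ℕ) := by
    refine lev_pred (mul_mem (inv_mem hql) hg') ?_ ?_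
    · rw [ap_mul, ge, ap_inv_of _ qe]
    · rw [ap_mul, ← hvdef, ap_inv_of _ qf]
  obtain ⟨x, hx, hx1⟩ := (D.hKfst _).1 hlast
  refine ⟨z * q * x, mul_mem (mul_mem hz hq) (D.K_le_next hx), ?_⟩
  rw [Prod.fst_mul, Prod.fst_mul, hx1, hg'def]
  group

end Step

end CfsgLib.Chev.SpSlim
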