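import Cfsg.Agent.Chev.SpSlim.Base

/-!
# Adjoining one hyperbolic pair to a graph over a symplectic group
-/

set_option autoImplicit false

namespace CfsgLib.Chev.SpSlim

open Matrix CfsgLib.SpGeom

universe u v

/-- The data from which the next level is built. -/
structure Step (n : ℕ) (F : Type u) [Field F] (H : Type v) [Group H] where
  /-- the new index -/
  k : Fin n
  /-- the previous index -/
  j : Fin n
  hjk : (k : ℕ) = (j : ℕ) + 1
  /-- the graph already built -/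
  ΓK : Subgroup (Matrix.symplecticGroup (Fin n) F × H)
  /-- the parabolic graph of the new pair -/
  ΓP : Subgroup (Matrix.symplecticGroup (Fin n) F × H)
  /-- the parabolic graph of the previous pair -/
  ΓQ : Subgroup (Matrix.symplecticGroup (Fin n) F × H)
  hK : IsGraph ΓK
  hP : IsGraph ΓP
  hQ : IsGraph ΓQ
  hKfst : ∀ g, g ∈ lev n F (k : ℕ) ↔ ∃ x ∈ ΓK, x.1 = g
  /-- the new long root elements -/
  Te : F → Matrix.symplecticGroup (Fin n) F × H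
  /-- the new opposite long root elements -/
  Tf : F → Matrix.symplecticGroup (Fin n) F × H
  /-- the new short root elements -/
  Eb : F → Matrix.symplecticGroup (Fin n) F × H
  hTe : ∀ c, (Te c).1 = tv (eV k) c
  hTf : ∀ c, (Tf c).1 = tv (fV k) c
  hEb : ∀ t, (Eb t).1 = Eich (eV k) (t • eV j)
  hTeP : ∀ c, Te c ∈ ΓP
  hTfP : ∀ c, Tf c ∈ ΓP
  hEbP : ∀ t, Eb t ∈ ΓP
  hTeQ : ∀ c, Te c ∈ ΓQ
  hEbQ : ∀ t, Eb t ∈ ΓQ
  hTbP : ∀ c, ∀ x ∈ ΓK, x.1 = tv (eV j) c → x ∈ ΓP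
  hTbQ : ∀ c, ∀ x ∈ ΓK, (x.1 = tv (eV j) c ∨ x.1 = tv (fV j) c) → x ∈ ΓQ
  hcomm : ∀ x ∈ ΓK, ∀ c, x * Te c = Te c * x ∧ x * Tf c = Tf c * x
  hstab : ∀ x ∈ ΓK, ap x.1 (eV j) = eV j → ∀ t, x * Eb t = Eb t * x
  hF : ∃ a : F, a ≠ 0 ∧ a ≠ 1

namespace Step

variable {n : ℕ} {F : Type u} [Field F] {H : Type v} [Group H] (D : Step n F H)

local notation "V" => (Fin n ⊕ Fin n → F)
local notation "P" => (Matrix.symplecticGroup (Fin n) F × H)

theorem hjW : (eV D.j : V) ∈ headSub n F (D.k : ℕ) := eV_mem (by have := D.hjk; omega)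

theorem hjW' : (fV D.j : V) ∈ headSub n F (D.k : ℕ) := fV_mem (by have := D.hjk; omega)

theorem orth {v : V} (hv : v ∈ headSub n F (D.k : ℕ)) :
    bo (eV D.k) v = 0 ∧ bo (fV D.k) v = 0 ∧ bo v (eV D.k) = 0 ∧ bo v (fV D.k) = 0 := by
  obtain ⟨a, b⟩ := headSub_orth le_rfl hv
  exact ⟨a, b, by rw [bo_skew, a, neg_zero], by rw [bo_skew, b, neg_zero]⟩

theorem eV_ne_zero (l : Fin n) : (eV l : V) ≠ 0 := fun h => by simpa [eV] using congrFun h (.inl l)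

theorem fix {x : P} (hx : x ∈ D.ΓK) : ap x.1 (eV D.k) = eV D.k ∧ ap x.1 (fV D.k) = fV D.k :=
  (D.hKfst x.1).2 ⟨x, hx, rfl⟩ D.k le_rfl

theorem maps {x : P} (hx : x ∈ D.ΓK) {v : V} (hv : v ∈ headSub n F (D.k : ℕ)) :
    ap x.1 v ∈ headSub n F (D.k : ℕ) :=
  lev_maps ((D.hKfst x.1).2 ⟨x, hx, rfl⟩) hv

theorem exists_vec {v : V} (hv : v ∈ headSub n F (D.k : ℕ)) (h0 : v ≠ 0) :
    ∃ x ∈ D.ΓK, ap x.1 (eV D.j) = v := by
  obtain ⟨g, hg, h⟩ := exists_move_vec D.hjW (eV_ne_zero D.j) hv h0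
  obtain ⟨x, hx, rfl⟩ := (D.hKfst g).1 hg
  exact ⟨x, hx, h⟩

/-! ### The symplectic transvections of the level -/

open scoped Classical in
/-- The lift of a transvection of the level. -/
noncomputable def T (v : V) (c : F) : P :=
  if h : ∃ x ∈ D.ΓK, x.1 = tv v c then h.choose else 1

theorem T_spec {v : V} (hv : v ∈ headSub n F (D.k : ℕ)) (c : F) :
    D.T v c ∈ D.ΓK ∧ (D.T v c).1 = tv v c := by
  have h := (D.hKfst _).1 (tv_mem_lev hv c)
  rw [T, dif_pos h]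
  exact h.choose_spec

theorem T_mem {v : V} (hv : v ∈ headSub n F (D.k : ℕ)) (c : F) : D.T v c ∈ D.ΓK := (D.T_spec hv c).1

theorem T_fst {v : V} (hv : v ∈ headSub n F (D.k : ℕ)) (c : F) : (D.T v c).1 = tv v c := (D.T_spec hv c).2

theorem T_zero_vec (c : F) : D.T 0 c = 1 :=
  D.hK.eq (D.T_mem (zero_mem _) c) (one_mem _) (by rw [D.T_fst (zero_mem _), tv_vec_zero]; rfl)

theorem T_conj {x : P} (hx : x ∈ D.ΓK) {v : V} (hv : v ∈ headSub n F (D.k : ℕ)) (c : F) :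
    MulAut.conj x (D.T v c) = D.T (ap x.1 v) c := by
  rw [MulAut.conj_apply]
  refine D.hK.eq (mul_mem (mul_mem hx (D.T_mem hv c)) (inv_mem hx)) (D.T_mem (D.maps hx hv) c) ?_
  rw [Prod.fst_mul, Prod.fst_mul, Prod.fst_inv, D.T_fst hv, D.T_fst (D.maps hx hv), tv_conj']

theorem T_bP (c : F) : D.T (eV D.j) c ∈ D.ΓP := D.hTbP c _ (D.T_mem D.hjW c) (D.T_fst D.hjW c)

theorem T_bQ (c : F) : D.T (eV D.j) c ∈ D.ΓQ :=
  D.hTbQ c _ (D.T_mem D.hjW c) (Or.inl (D.T_fst D.hjW c))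

theorem T_bQ' (c : F) : D.T (fV D.j) c ∈ D.ΓQ :=
  D.hTbQ c _ (D.T_mem D.hjW' c) (Or.inr (D.T_fst D.hjW' c))

theorem plane {α β : F} (h : α ≠ 0 ∨ β ≠ 0) : ∃ x, x ∈ D.ΓK ∧ x ∈ D.ΓQ ∧
    ap x.1 (eV D.j) = α • eV D.j + β • fV D.j := by
  have h1 : bo (eV D.j : V) (fV D.j) = 1 := bo_eV_fV _
  have h2 : bo (fV D.j : V) (eV D.j) = -1 := by rw [bo_skew, h1]
  have key : ∀ α' β' : F, β' ≠ 0 → ∃ x, x ∈ D.ΓK ∧ x ∈ D.ΓQ ∧
      ap x.1 (eV D.j) = α' • eV D.j + β' • fV D.j := by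
    intro α' β' hβ
    refine ⟨D.T (eV D.j) ((α' - 1) / β') * D.T (fV D.j) (-β'),
      mul_mem (D.T_mem D.hjW _) (D.T_mem D.hjW' _), mul_mem (D.T_bQ _) (D.T_bQ' _), ?_⟩
    rw [Prod.fst_mul, D.T_fst D.hjW, D.T_fst D.hjW', ap_mul, ap_tv, ap_tv]
    simp only [bo_add_right, bo_smul_right, bo_self, h1, h2, mul_neg, neg_neg, mul_one, zero_add,
      div_mul_cancel₀ _ hβ, sub_smul, one_smul]
    abel
  by_cases hβ : β = 0
  · subst hβ
    have hα : α ≠ 0 := h.resolve_right (fun h => h rfl)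
    obtain ⟨x, hx, hxQ, e⟩ := key α 1 one_ne_zero
    refine ⟨D.T (fV D.j) α⁻¹ * x, mul_mem (D.T_mem D.hjW' _) hx, mul_mem (D.T_bQ' _) hxQ, ?_⟩
    rw [Prod.fst_mul, D.T_fst D.hjW', ap_mul, e, ap_tv, bo_add_right, bo_smul_right, bo_smul_right,
      bo_self, h2, mul_zero, add_zero, mul_neg, mul_one, mul_neg, inv_mul_cancel₀ hα]
    module
  · exact key α β hβ

/-! ### The two unipotent radicals -/

open scoped Classical in
/-- The element of the upper radical of a vector. -/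
noncomputable def U (v : V) : P :=
  if h : v ≠ 0 ∧ ∃ x ∈ D.ΓK, ap x.1 (eV D.j) = v then MulAut.conj h.2.choose (D.Eb 1) else 1

theorem U_zero : D.U 0 = 1 := dif_neg (fun h => h.1 rfl)

theorem U_spec {x : P} (hx : x ∈ D.ΓK) {v : V} (e : ap x.1 (eV D.j) = v) :
    D.U v = MulAut.conj x (D.Eb 1) := by
  have hv : v ≠ 0 := fun h => eV_ne_zero D.j (by
    have := ap_inv_of x.1 e
    rw [h, ap_zero] at this
    exact this.symm)
  have h : v ≠ 0 ∧ ∃ x ∈ D.ΓK, ap x.1 (eV D.j) = v := ⟨hv, x, hx, e⟩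
  rw [U, dif_pos h]
  obtain ⟨hy, ey⟩ := h.2.choose_spec
  generalize h.2.choose = y at hy ey
  have hs := D.hstab (x⁻¹ * y) (mul_mem (inv_mem hx) hy)
    (by rw [Prod.fst_mul, Prod.fst_inv, ap_mul, ey, ← e, ap_inv_left]) 1
  simp only [MulAut.conj_apply]
  calc y * D.Eb 1 * y⁻¹ = x * (x⁻¹ * y * D.Eb 1) * y⁻¹ := by group
    _ = x * (D.Eb 1 * (x⁻¹ * y)) * y⁻¹ := by rw [hs]
    _ = _ := by group

theorem U_conj {x : P} (hx : x ∈ D.ΓK) {v : V} (hv : v ∈ headSub n F (D.k : ℕ)) :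
    MulAut.conj x (D.U v) = D.U (ap x.1 v) := by
  by_cases h0 : v = 0
  · subst h0; rw [U_zero, ap_zero, U_zero, map_one]
  · obtain ⟨y, hy, e⟩ := D.exists_vec hv h0
    rw [D.U_spec hy e, D.U_spec (mul_mem hx hy) (by rw [Prod.fst_mul, ap_mul, e]), map_mul]
    rfl

theorem U_mem_plane (α β : F) : D.U (α • eV D.j + β • fV D.j) ∈ D.ΓQ := by
  by_cases h : α ≠ 0 ∨ β ≠ 0
  · obtain ⟨x, hx, hxQ, e⟩ := D.plane h
    rw [D.U_spec hx e, MulAut.conj_apply]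
    exact mul_mem (mul_mem hxQ (D.hEbQ 1)) (inv_mem hxQ)
  · push Not at h
    rw [h.1, h.2, zero_smul, zero_smul, add_zero, U_zero]
    exact one_mem _

theorem U_fst {v : V} (hv : v ∈ headSub n F (D.k : ℕ)) : (D.U v).1 = Eich (eV D.k) v := by
  by_cases h0 : v = 0
  · subst h0; rw [U_zero, Eich_zero]; rfl
  · obtain ⟨x, hx, e⟩ := D.exists_vec hv h0
    rw [D.U_spec hx e, MulAut.conj_apply, Prod.fst_mul, Prod.fst_mul, Prod.fst_inv, D.hEb,
      Eich_conj, one_smul, e, (D.fix hx).1]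

theorem U_Eb (t : F) : D.U (t • eV D.j) = D.Eb t := by
  have hmem : D.U (t • eV D.j) ∈ D.ΓQ := by
    simpa using D.U_mem_plane t 0
  exact D.hQ.eq hmem (D.hEbQ t) (by rw [D.U_fst (Submodule.smul_mem _ t D.hjW), D.hEb])

theorem U_bP (t : F) : D.U (t • eV D.j) ∈ D.ΓP := by rw [U_Eb]; exact D.hEbP t

theorem U_Te {v : V} (hv : v ∈ headSub n F (D.k : ℕ)) (c : F) : D.U v * D.Te c = D.Te c * D.U v := by
  by_cases h0 : v = 0
  · subst h0; rw [U_zero, one_mul, mul_one]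
  · obtain ⟨x, hx, e⟩ := D.exists_vec hv h0
    have hb : D.Eb 1 * D.Te c = D.Te c * D.Eb 1 := by
      refine D.hP.comm (D.hEbP 1) (D.hTeP c) ?_
      rw [D.hEb, D.hTe, one_smul]
      refine mul_inv_eq_iff_eq_mul.1 ?_
      rw [tv_conj', ap_Eich_fix (D.orth D.hjW).1 (bo_self _) (D.orth D.hjW).2.2.1]
    rw [D.U_spec hx e]
    have hc : MulAut.conj x (D.Te c) = D.Te c := by
      rw [MulAut.conj_apply, (D.hcomm x hx c).1, mul_inv_cancel_right]
    conv_lhs => rw [← hc, ← map_mul, hb, map_mul, hc]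

theorem U_add {v w : V} (hv : v ∈ headSub n F (D.k : ℕ)) (hw : w ∈ headSub n F (D.k : ℕ)) :
    D.U v * D.U w = D.U (v + w) * D.Te (bo v w) := by
  have base : ∀ α β γ : F, D.U (α • eV D.j) * D.U (β • eV D.j + γ • fV D.j) =
      D.U (α • eV D.j + (β • eV D.j + γ • fV D.j)) * D.Te (bo (α • eV D.j : V) (β • eV D.j + γ • fV D.j)) := by
    intro α β γ
    have h1 : D.U (α • eV D.j) ∈ D.ΓQ := by rw [U_Eb]; exact D.hEbQ α
    have h2 : D.U (α • eV D.j + (β • eV D.j + γ • fV D.j)) ∈ D.ΓQ := by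
      rw [← add_assoc, ← add_smul]; exact D.U_mem_plane _ _
    have m1 : (α • eV D.j : V) ∈ headSub n F (D.k : ℕ) := Submodule.smul_mem _ _ D.hjW
    have m2 : (β • eV D.j + γ • fV D.j : V) ∈ headSub n F (D.k : ℕ) :=
      add_mem (Submodule.smul_mem _ _ D.hjW) (Submodule.smul_mem _ _ D.hjW')
    refine D.hQ.eq (mul_mem h1 (D.U_mem_plane _ _)) (mul_mem h2 (D.hTeQ _)) ?_
    rw [Prod.fst_mul, Prod.fst_mul, D.U_fst m1, D.U_fst m2, D.U_fst (add_mem m1 m2), D.hTe,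
      Eich_add (D.orth m1).1 (D.orth m2).1]
  have moved : ∀ x ∈ D.ΓK, ∀ α β γ : F,
      D.U (ap x.1 (α • eV D.j)) * D.U (ap x.1 (β • eV D.j + γ • fV D.j)) =
        D.U (ap x.1 (α • eV D.j) + ap x.1 (β • eV D.j + γ • fV D.j)) *
          D.Te (bo (ap x.1 (α • eV D.j)) (ap x.1 (β • eV D.j + γ • fV D.j))) := by
    intro x hx α β γ
    have m1 : (α • eV D.j : V) ∈ headSub n F (D.k : ℕ) := Submodule.smul_mem _ _ D.hjW
    have m2 : (β • eV D.j + γ • fV D.j : V) ∈ headSub n F (D.k : ℕ) :=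
      add_mem (Submodule.smul_mem _ _ D.hjW) (Submodule.smul_mem _ _ D.hjW')
    have hc : ∀ c, MulAut.conj x (D.Te c) = D.Te c := fun c => by
      rw [MulAut.conj_apply, (D.hcomm x hx c).1, mul_inv_cancel_right]
    rw [← D.U_conj hx m1, ← D.U_conj hx m2, ← map_mul, base, map_mul, D.U_conj hx (add_mem m1 m2), hc,
      ap_add, bo_ap]
  -- hyperbolic pairs
  have hyp : ∀ v w : V, v ∈ headSub n F (D.k : ℕ) → w ∈ headSub n F (D.k : ℕ) → bo v w ≠ 0 →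
      D.U v * D.U w = D.U (v + w) * D.Te (bo v w) := by
    intro v w hv hw hd
    obtain ⟨g, hg, e1, e2⟩ := exists_move_hyp D.hjW D.hjW' hv (Submodule.smul_mem _ (bo v w)⁻¹ hw)
      (bo_eV_fV D.j) (by rw [bo_smul_right, inv_mul_cancel₀ hd])
    obtain ⟨x, hx, rfl⟩ := (D.hKfst g).1 hg
    have := moved x hx 1 0 (bo v w)
    rwa [zero_smul, zero_add, one_smul, e1, ap_smul, e2, smul_inv_smul₀ hd] at this
  by_cases hd : bo v w = 0
  swap
  · exact hyp v w hv hw hd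
  by_cases h0 : v = 0
  · subst h0
    have e : D.Te (0 : F) = 1 := D.hP.eq (D.hTeP 0) (one_mem _) (by rw [D.hTe, tv_zero]; rfl)
    rw [U_zero, one_mul, zero_add, bo_zero_left, e, mul_one]
  by_cases hpar : ∃ μ : F, w = μ • v
  · obtain ⟨μ, rfl⟩ := hpar
    obtain ⟨x, hx, e⟩ := D.exists_vec hv h0
    have := moved x hx 1 μ 0
    rwa [zero_smul, add_zero, one_smul, ap_smul, e] at this
  -- a vector pairing suitably with both
  obtain ⟨a, ha0, ha1⟩ := D.hF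
  obtain ⟨u, hu, u1, u2⟩ : ∃ u ∈ headSub n F (D.k : ℕ), bo v u = 1 ∧ bo w u = -a := by
    obtain ⟨z0, hz0, hz0'⟩ := nondeg_headSub (D.k : ℕ) v hv h0
    set u0 := (bo v z0)⁻¹ • z0
    have hz1 : bo v z0 ≠ 0 := by
      rw [bo_skew]; exact neg_ne_zero.2 hz0'
    have hu0 : u0 ∈ headSub n F (D.k : ℕ) := Submodule.smul_mem _ _ hz0
    have hvu0 : bo v u0 = 1 := by rw [bo_smul_right, inv_mul_cancel₀ hz1]
    have hw' : w - bo w u0 • v ≠ 0 := fun h => hpar ⟨_, sub_eq_zero.1 h⟩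
    obtain ⟨z, hz, hz'⟩ := nondeg_headSub (D.k : ℕ) _ (sub_mem hw (Submodule.smul_mem _ _ hv)) hw'
    set z1 := z - bo v z • u0
    have e1 : bo v z1 = 0 := by rw [bo_sub_right, bo_smul_right, hvu0, mul_one, sub_self]
    have e2 : bo w z1 ≠ 0 := by
      have e : bo (w - bo w u0 • v) z ≠ 0 := by
        rw [bo_skew]; exact neg_ne_zero.2 hz'
      rw [bo_sub_right, bo_smul_right]
      rw [bo_sub_left, bo_smul_left] at e
      rwa [mul_comm]
    refine ⟨u0 + ((-a - bo w u0) / bo w z1) • z1,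
      add_mem hu0 (Submodule.smul_mem _ _ (sub_mem hz (Submodule.smul_mem _ _ hu0))), ?_, ?_⟩
    · rw [bo_add_right, bo_smul_right _ v z1, e1, hvu0, mul_zero, add_zero]
    · rw [bo_add_right, bo_smul_right _ w z1, div_mul_cancel₀ _ e2, add_sub_cancel]
  have h3 : bo (v + w) u = 1 + -a := by rw [bo_add_left, u1, u2]
  have E1 := hyp (v + w) u (add_mem hv hw) hu (by
    rw [h3, ← sub_eq_add_neg]; exact sub_ne_zero.2 (Ne.symm ha1))
  have E2 := hyp w u hw hu (by rw [u2]; exact neg_ne_zero.2 ha0)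
  have E3 := hyp v (w + u) hv (add_mem hw hu) (by rw [bo_add_right, hd, u1, zero_add]; exact one_ne_zero)
  have hTT : D.Te 1 * D.Te (-a) = D.Te (1 + -a) :=
    D.hP.eq (mul_mem (D.hTeP _) (D.hTeP _)) (D.hTeP _) (by rw [Prod.fst_mul, D.hTe, D.hTe, D.hTe, tv_mul])
  have e0 : D.Te (0 : F) = 1 := D.hP.eq (D.hTeP 0) (one_mem _) (by rw [D.hTe, tv_zero]; rfl)
  rw [hd, e0, mul_one]
  refine mul_right_cancel (b := D.U u) ?_
  rw [E1, mul_assoc, E2, h3, u2, ← mul_assoc, E3, bo_add_right, hd, u1, zero_add, add_assoc,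
    mul_assoc, hTT]

theorem U_inv {v : V} (hv : v ∈ headSub n F (D.k : ℕ)) : (D.U v)⁻¹ = D.U (-v) := by
  refine inv_eq_of_mul_eq_one_right ?_
  have e0 : D.Te (0 : F) = 1 := D.hP.eq (D.hTeP 0) (one_mem _) (by rw [D.hTe, tv_zero]; rfl)
  rw [D.U_add hv (neg_mem hv), add_neg_cancel, U_zero, bo_neg_right, bo_self, neg_zero, e0, one_mul]

/-! ### The new long root group -/

theorem Te_zero : D.Te 0 = 1 := D.hP.eq (D.hTeP 0) (one_mem _) (by rw [D.hTe, tv_zero]; rfl)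

theorem Tf_zero : D.Tf 0 = 1 := D.hP.eq (D.hTfP 0) (one_mem _) (by rw [D.hTf, tv_zero]; rfl)

theorem Te_add (a b : F) : D.Te a * D.Te b = D.Te (a + b) :=
  D.hP.eq (mul_mem (D.hTeP _) (D.hTeP _)) (D.hTeP _) (by rw [Prod.fst_mul, D.hTe, D.hTe, D.hTe, tv_mul])

theorem Tf_add (a b : F) : D.Tf a * D.Tf b = D.Tf (a + b) :=
  D.hP.eq (mul_mem (D.hTfP _) (D.hTfP _)) (D.hTfP _) (by rw [Prod.fst_mul, D.hTf, D.hTf, D.hTf, tv_mul])

theorem Te_inv (a : F) : (D.Te a)⁻¹ = D.Te (-a) :=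
  inv_eq_of_mul_eq_one_right (by rw [Te_add, add_neg_cancel, Te_zero])

theorem Tf_inv (a : F) : (D.Tf a)⁻¹ = D.Tf (-a) :=
  inv_eq_of_mul_eq_one_right (by rw [Tf_add, add_neg_cancel, Tf_zero])

/-- A Weyl element of the new pair. -/
def w (c : F) : P := D.Te (-c) * D.Tf (-c⁻¹) * D.Te (-c)

theorem w_mem (c : F) : D.w c ∈ D.ΓP := mul_mem (mul_mem (D.hTeP _) (D.hTfP _)) (D.hTeP _)

theorem ap_w {c : F} (hc : c ≠ 0) : ap (D.w c).1 (eV D.k) = c⁻¹ • fV D.k ∧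
    ap (D.w c).1 (fV D.k) = -c • eV D.k ∧
      ∀ v ∈ headSub n F (D.k : ℕ), ap (D.w c).1 v = v := by
  have h1 : bo (eV D.k : V) (fV D.k) = 1 := bo_eV_fV _
  have h2 : bo (fV D.k : V) (eV D.k) = -1 := by rw [bo_skew, h1]
  simp only [w, Prod.fst_mul, D.hTe, D.hTf, ap_mul]
  refine ⟨?_, ?_, fun v hv => ?_⟩
  · simp only [ap_tv, bo_add_right, bo_smul_right, bo_self, h1, h2, mul_zero, mul_one, mul_neg, neg_neg,
      neg_mul, add_zero, zero_add, zero_smul, mul_inv_cancel₀ hc]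
    module
  · simp only [ap_tv, bo_add_right, bo_smul_right, bo_self, h1, h2, mul_zero, mul_one, mul_neg, neg_neg,
      neg_mul, add_zero, zero_add, inv_mul_cancel₀ hc, mul_inv_cancel₀ hc]
    simp
  · rw [ap_tv_fix _ _ (D.orth hv).1, ap_tv_fix _ _ (D.orth hv).2.1, ap_tv_fix _ _ (D.orth hv).1]

theorem w_commute {x : P} (hx : x ∈ D.ΓK) (c : F) : MulAut.conj x (D.w c) = D.w c := by
  have h1 : ∀ c, MulAut.conj x (D.Te c) = D.Te c := fun c => by
    rw [MulAut.conj_apply, (D.hcomm x hx c).1, mul_inv_cancel_right]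
  have h2 : ∀ c, MulAut.conj x (D.Tf c) = D.Tf c := fun c => by
    rw [MulAut.conj_apply, (D.hcomm x hx c).2, mul_inv_cancel_right]
  rw [w, map_mul, map_mul, h1, h2]

/-- The new torus. -/
def hh (μ : F) : P := D.w μ * (D.w 1)⁻¹

theorem hh_mem (μ : F) : D.hh μ ∈ D.ΓP := mul_mem (D.w_mem μ) (inv_mem (D.w_mem 1))

theorem hh_commute {x : P} (hx : x ∈ D.ΓK) (μ : F) : MulAut.conj x (D.hh μ) = D.hh μ := by
  rw [hh, map_mul, map_inv, w_commute D hx, w_commute D hx]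

theorem ap_hh {μ : F} (hμ : μ ≠ 0) : ap (D.hh μ).1 (eV D.k) = μ • eV D.k ∧
    ap (D.hh μ).1 (fV D.k) = μ⁻¹ • fV D.k ∧
      ∀ v ∈ headSub n F (D.k : ℕ), ap (D.hh μ).1 v = v := by
  obtain ⟨a1, a2, a3⟩ := D.ap_w hμ
  obtain ⟨b1, b2, b3⟩ := D.ap_w (one_ne_zero (α := F))
  rw [inv_one, one_smul] at b1
  rw [neg_smul, one_smul] at b2
  simp only [hh, Prod.fst_mul, Prod.fst_inv, ap_mul]
  refine ⟨?_, ?_, fun v hv => by rw [ap_inv_of _ (b3 v hv), a3 v hv]⟩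
  · rw [show ap (D.w 1).1⁻¹ (eV D.k) = -fV D.k from ap_inv_of _ (by rw [ap_neg, b2, neg_neg]), ap_neg, a2,
      neg_smul, neg_neg]
  · rw [ap_inv_of _ b1, a1]

/-- The element of the lower radical of a vector. -/
noncomputable def U' (v : V) : P := MulAut.conj (D.w 1) (D.U v)

theorem U'_zero : D.U' 0 = 1 := by rw [U', U_zero, map_one]

theorem U'_fst {v : V} (hv : v ∈ headSub n F (D.k : ℕ)) : (D.U' v).1 = Eich (fV D.k) v := by
  obtain ⟨b1, -, b3⟩ := D.ap_w (one_ne_zero (α := F))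
  rw [U', MulAut.conj_apply, Prod.fst_mul, Prod.fst_mul, Prod.fst_inv, D.U_fst hv, Eich_conj, b1,
    inv_one, one_smul, b3 v hv]

theorem U'_conj {x : P} (hx : x ∈ D.ΓK) {v : V} (hv : v ∈ headSub n F (D.k : ℕ)) :
    MulAut.conj x (D.U' v) = D.U' (ap x.1 v) := by
  conv_rhs => rw [U', ← D.U_conj hx hv]
  simp only [U', MulAut.conj_apply]
  have := D.w_commute hx 1
  rw [MulAut.conj_apply, mul_inv_eq_iff_eq_mul] at this
  calc x * (D.w 1 * D.U v * (D.w 1)⁻¹) * x⁻¹ = x * D.w 1 * D.U v * (x * D.w 1)⁻¹ := by group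
    _ = D.w 1 * x * D.U v * (D.w 1 * x)⁻¹ := by rw [this]
    _ = _ := by group

theorem conj_w_Te (c : F) : MulAut.conj (D.w 1) (D.Te c) = D.Tf c := by
  obtain ⟨b1, -, -⟩ := D.ap_w (one_ne_zero (α := F))
  rw [MulAut.conj_apply]
  refine D.hP.eq (mul_mem (mul_mem (D.w_mem 1) (D.hTeP c)) (inv_mem (D.w_mem 1))) (D.hTfP c) ?_
  rw [Prod.fst_mul, Prod.fst_mul, Prod.fst_inv, D.hTe, D.hTf, tv_conj', b1, inv_one, one_smul]

theorem U'_add {v w : V} (hv : v ∈ headSub n F (D.k : ℕ)) (hw : w ∈ headSub n F (D.k : ℕ)) :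
    D.U' v * D.U' w = D.U' (v + w) * D.Tf (bo v w) := by
  simp only [U', ← map_mul, D.U_add hv hw]
  rw [map_mul, conj_w_Te]

theorem U'_inv {v : V} (hv : v ∈ headSub n F (D.k : ℕ)) : (D.U' v)⁻¹ = D.U' (-v) := by
  rw [U', U', ← map_inv, D.U_inv hv]

theorem U'_Tf {v : V} (hv : v ∈ headSub n F (D.k : ℕ)) (c : F) : D.U' v * D.Tf c = D.Tf c * D.U' v := by
  rw [← conj_w_Te, U', ← map_mul, ← map_mul, D.U_Te hv]

/-- An identity between conjugates which holds at the base vector holds everywhere. -/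
theorem transport {A B : V → P} (h0 : A 0 = B 0)
    (hA : ∀ x ∈ D.ΓK, MulAut.conj x (A (eV D.j)) = A (ap x.1 (eV D.j)))
    (hB : ∀ x ∈ D.ΓK, MulAut.conj x (B (eV D.j)) = B (ap x.1 (eV D.j)))
    (hb : A (eV D.j) = B (eV D.j)) {v : V} (hv : v ∈ headSub n F (D.k : ℕ)) : A v = B v := by
  by_cases hv0 : v = 0
  · subst hv0; exact h0
  · obtain ⟨x, hx, e⟩ := D.exists_vec hv hv0
    rw [← e, ← hA x hx, hb, hB x hx]

theorem U'_bP (t : F) : D.U' (t • eV D.j) ∈ D.ΓP := by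
  rw [U', MulAut.conj_apply]
  exact mul_mem (mul_mem (D.w_mem 1) (D.U_bP t)) (inv_mem (D.w_mem 1))

theorem Tf_U_conj (s : F) {v : V} (hv : v ∈ headSub n F (D.k : ℕ)) :
    MulAut.conj (D.Tf s) (D.U v) = D.U v * D.U' (-s • v) * D.T v s := by
  have hc : ∀ x ∈ D.ΓK, MulAut.conj x (D.Tf s) = D.Tf s := fun x hx => by
    rw [MulAut.conj_apply, (D.hcomm x hx s).2, mul_inv_cancel_right]
  have hm : (-s • eV D.j : V) ∈ headSub n F (D.k : ℕ) := Submodule.smul_mem _ _ D.hjW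
  refine D.transport (A := fun v => MulAut.conj (D.Tf s) (D.U v))
    (B := fun v => D.U v * D.U' (-s • v) * D.T v s) ?_ (fun x hx => ?_) (fun x hx => ?_) ?_ hv
  · simp only [smul_zero, U_zero, U'_zero, T_zero_vec, map_one, mul_one]
  · show MulAut.conj x (MulAut.conj (D.Tf s) (D.U _)) = MulAut.conj (D.Tf s) _
    rw [← D.U_conj hx D.hjW]
    conv_rhs => rw [← hc x hx]
    simp only [MulAut.conj_apply]; group
  · show MulAut.conj x (D.U _ * _ * _) = _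
    rw [map_mul, map_mul, D.U_conj hx D.hjW, D.U'_conj hx hm, D.T_conj hx D.hjW, ap_smul]
  · have h1 : D.U (eV D.j) ∈ D.ΓP := by simpa using D.U_bP 1
    rw [MulAut.conj_apply]
    refine D.hP.eq (mul_mem (mul_mem (D.hTfP s) h1) (inv_mem (D.hTfP s)))
      (mul_mem (mul_mem h1 (D.U'_bP (-s))) (D.T_bP s)) ?_
    have o := D.orth D.hjW
    have h12 : bo (eV D.k : V) (fV D.k) = 1 := bo_eV_fV _
    rw [Prod.fst_mul, Prod.fst_mul, Prod.fst_mul, Prod.fst_mul, Prod.fst_inv, D.hTf, D.U_fst D.hjW,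
      D.U'_fst hm, D.T_fst D.hjW, Eich_conj, ap_tv_fix _ _ o.2.1, ap_tv]
    rw [← Eich_smul o.2.1, Eich_add_left o.1 (by rw [bo_smul_left, o.2.1, mul_zero]), mul_assoc, tv_mul,
      bo_smul_right, h12, mul_one, neg_add_cancel, tv_zero, mul_one]
    congr 1
    rw [bo_skew (eV D.k), h12, mul_neg, mul_one]

theorem U_Tf (s : F) {v : V} (hv : v ∈ headSub n F (D.k : ℕ)) :
    D.U v * D.Tf s = D.Tf s * D.T v s * D.U' (s • v) * D.U v := by
  have h := congrArg (·⁻¹) (D.Tf_U_conj (-s) (neg_mem hv))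
  simp only [← map_inv, D.U_inv (neg_mem hv), neg_neg, _root_.mul_inv_rev,
    D.U'_inv (Submodule.smul_mem _ _ (neg_mem hv))] at h
  have hT : (D.T (-v) (-s))⁻¹ = D.T v s := by
    refine D.hK.eq (inv_mem (D.T_mem (neg_mem hv) _)) (D.T_mem hv _) ?_
    rw [Prod.fst_inv, D.T_fst (neg_mem hv), D.T_fst hv, tv_neg', tv_inv, neg_neg]
  rw [hT, smul_neg, neg_neg, MulAut.conj_apply, Tf_inv, neg_neg] at h
  calc D.U v * D.Tf s = D.Tf s * (D.Tf (-s) * D.U v * D.Tf s) := by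
        rw [← mul_assoc, ← mul_assoc, Tf_add, add_neg_cancel, Tf_zero, one_mul]
    _ = _ := by rw [h]; group

theorem conj_w_sq {v : V} (hv : v ∈ headSub n F (D.k : ℕ)) :
    MulAut.conj (D.w 1) (D.U' v) = D.U (-v) := by
  refine D.transport (A := fun v => MulAut.conj (D.w 1) (D.U' v)) (B := fun v => D.U (-v)) ?_
    (fun x hx => ?_) (fun x hx => ?_) ?_ hv
  · simp only [neg_zero, U_zero, U'_zero, map_one]
  · show MulAut.conj x (MulAut.conj (D.w 1) _) = MulAut.conj (D.w 1) _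
    rw [← D.U'_conj hx D.hjW]
    conv_rhs => rw [← D.w_commute hx 1]
    simp only [MulAut.conj_apply]; group
  · show MulAut.conj x (D.U _) = _
    rw [D.U_conj hx (neg_mem D.hjW), ap_neg]
  · have hm : D.U (-eV D.j) ∈ D.ΓP := by simpa using D.U_bP (-1)
    have h1 : D.U' (eV D.j) ∈ D.ΓP := by simpa using D.U'_bP 1
    rw [MulAut.conj_apply]
    refine D.hP.eq (mul_mem (mul_mem (D.w_mem 1) h1) (inv_mem (D.w_mem 1))) hm ?_
    obtain ⟨b1, b2, b3⟩ := D.ap_w (one_ne_zero (α := F))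
    rw [Prod.fst_mul, Prod.fst_mul, Prod.fst_inv, D.U'_fst D.hjW, D.U_fst (neg_mem D.hjW), Eich_conj, b2,
      b3 _ D.hjW, Eich_smul (D.orth D.hjW).1]
    simp

theorem Te_U'_conj (s : F) {v : V} (hv : v ∈ headSub n F (D.k : ℕ)) :
    D.Te s * D.U' v = D.U (s • v) * D.U' v * D.T v (-s) * D.Te s := by
  have hw : ∀ c, MulAut.conj (D.w 1) (D.Tf c) = D.Te c := fun c => by
    obtain ⟨-, b2, -⟩ := D.ap_w (one_ne_zero (α := F))
    rw [MulAut.conj_apply]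
    refine D.hP.eq (mul_mem (mul_mem (D.w_mem 1) (D.hTfP c)) (inv_mem (D.w_mem 1))) (D.hTeP c) ?_
    rw [Prod.fst_mul, Prod.fst_mul, Prod.fst_inv, D.hTf, D.hTe, tv_conj', b2, neg_smul, one_smul, tv_neg']
  have key : ∀ v, v ∈ headSub n F (D.k : ℕ) →
      MulAut.conj (D.Te s) (D.U' v) = D.U' v * D.U (s • v) * D.T v s := by
    intro v hv
    have h := congrArg (MulAut.conj (D.w 1)) (D.Tf_U_conj s hv)
    have hTw : MulAut.conj (D.w 1) (D.T v s) = D.T v s := by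
      have := D.w_commute (D.T_mem hv s) 1
      rw [MulAut.conj_apply, mul_inv_eq_iff_eq_mul] at this
      rw [MulAut.conj_apply, ← this, mul_inv_cancel_right]
    rw [map_mul, map_mul, hTw, D.conj_w_sq (Submodule.smul_mem _ _ hv), neg_smul, neg_neg] at h
    rw [← hw s]
    refine Eq.trans ?_ h
    simp only [MulAut.conj_apply, U']; group
  have h := congrArg (·⁻¹) (key (-v) (neg_mem hv))
  simp only [← map_inv, D.U'_inv (neg_mem hv), neg_neg, _root_.mul_inv_rev,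
    D.U_inv (Submodule.smul_mem _ _ (neg_mem hv))] at h
  have hT : (D.T (-v) s)⁻¹ = D.T v (-s) := by
    refine D.hK.eq (inv_mem (D.T_mem (neg_mem hv) _)) (D.T_mem hv _) ?_
    rw [Prod.fst_inv, D.T_fst (neg_mem hv), D.T_fst hv, tv_neg', tv_inv]
  rw [hT, smul_neg, neg_neg, MulAut.conj_apply, mul_inv_eq_iff_eq_mul] at h
  rw [h]
  -- the transvection fixes both vectors
  have hTU : D.T v (-s) * D.U (s • v) = D.U (s • v) * D.T v (-s) := by
    refine mul_inv_eq_iff_eq_mul.1 ?_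
    rw [← MulAut.conj_apply, D.U_conj (D.T_mem hv _) (Submodule.smul_mem _ _ hv), D.T_fst hv,
      ap_tv_fix _ _ (by rw [bo_smul_right, bo_self, mul_zero])]
  have hTU' : D.T v (-s) * D.U' v = D.U' v * D.T v (-s) := by
    refine mul_inv_eq_iff_eq_mul.1 ?_
    rw [← MulAut.conj_apply, D.U'_conj (D.T_mem hv _) hv, D.T_fst hv, ap_tv_fix _ _ (bo_self _)]
  congr 1
  rw [← mul_assoc, hTU, mul_assoc, hTU', mul_assoc]

theorem hh_U {μ : F} (hμ : μ ≠ 0) {v : V} (hv : v ∈ headSub n F (D.k : ℕ)) :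
    MulAut.conj (D.hh μ) (D.U v) = D.U (μ • v) ∧ MulAut.conj (D.hh μ) (D.U' v) = D.U' (μ⁻¹ • v) := by
  obtain ⟨b1, b2, b3⟩ := D.ap_hh hμ
  have m1 : (μ • eV D.j : V) ∈ headSub n F (D.k : ℕ) := Submodule.smul_mem _ _ D.hjW
  have m2 : (μ⁻¹ • eV D.j : V) ∈ headSub n F (D.k : ℕ) := Submodule.smul_mem _ _ D.hjW
  have h1 : D.U (eV D.j) ∈ D.ΓP := by simpa using D.U_bP 1
  have h1' : D.U' (eV D.j) ∈ D.ΓP := by simpa using D.U'_bP 1
  constructor
  · refine D.transport (A := fun v => MulAut.conj (D.hh μ) (D.U v)) (B := fun v => D.U (μ • v)) ?_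
      (fun x hx => ?_) (fun x hx => ?_) ?_ hv
    · simp only [smul_zero, U_zero, map_one]
    · show MulAut.conj x (MulAut.conj (D.hh μ) _) = MulAut.conj (D.hh μ) _
      rw [← D.U_conj hx D.hjW]
      conv_rhs => rw [← D.hh_commute hx μ]
      simp only [MulAut.conj_apply]; group
    · show MulAut.conj x (D.U _) = _
      rw [D.U_conj hx m1, ap_smul]
    · rw [MulAut.conj_apply]
      refine D.hP.eq (mul_mem (mul_mem (D.hh_mem μ) h1) (inv_mem (D.hh_mem μ))) (D.U_bP μ) ?_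
      rw [Prod.fst_mul, Prod.fst_mul, Prod.fst_inv, D.U_fst D.hjW, D.U_fst m1, Eich_conj, b1,
        b3 _ D.hjW, Eich_smul (D.orth D.hjW).1]
  · refine D.transport (A := fun v => MulAut.conj (D.hh μ) (D.U' v)) (B := fun v => D.U' (μ⁻¹ • v)) ?_
      (fun x hx => ?_) (fun x hx => ?_) ?_ hv
    · simp only [smul_zero, U'_zero, map_one]
    · show MulAut.conj x (MulAut.conj (D.hh μ) _) = MulAut.conj (D.hh μ) _
      rw [← D.U'_conj hx D.hjW]
      conv_rhs => rw [← D.hh_commute hx μ]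
      simp only [MulAut.conj_apply]; group
    · show MulAut.conj x (D.U' _) = _
      rw [D.U'_conj hx m2, ap_smul]
    · rw [MulAut.conj_apply]
      refine D.hP.eq (mul_mem (mul_mem (D.hh_mem μ) h1') (inv_mem (D.hh_mem μ))) (D.U'_bP μ⁻¹) ?_
      rw [Prod.fst_mul, Prod.fst_mul, Prod.fst_inv, D.U'_fst D.hjW, D.U'_fst m2, Eich_conj, b2,
        b3 _ D.hjW, Eich_smul (D.orth D.hjW).2.1]

end Step

end CfsgLib.Chev.SpSlim
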